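import Cfsg.Agent.S0280
import Cfsg.Agent.S0292
import Cfsg.Agent.S0293
import Cfsg.Agent.S0294
import Cfsg.Agent.Linear.Orders
import Cfsg.Agent.Linear.Symplectic
import Cfsg.Agent.SympSub.Count
import Mathlib

/-!
# Orders of groups of Lie type against their Sylow subgroups in the defining characteristic
-/

set_option autoImplicit false

namespace Cfsg.Agent.KSG.OrdBound

theorem not_dvd_pow_sub_one {p q e : ℕ} (hp : p.Prime) (hq : p ∣ q) (hq1 : 1 ≤ q) (he : e ≠ 0) :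
    ¬ p ∣ q ^ e - 1 := fun h => by
  have h2 := Nat.dvd_sub (hq.trans (dvd_pow_self q he)) h
  rw [Nat.sub_sub_self (Nat.one_le_pow _ _ hq1)] at h2
  exact hp.not_dvd_one h2

theorem not_dvd_pow_add_one {p q e : ℕ} (hp : p.Prime) (hq : p ∣ q) (he : e ≠ 0) :
    ¬ p ∣ q ^ e + 1 := fun h =>
  hp.not_dvd_one ((Nat.dvd_add_right (hq.trans (dvd_pow_self q he))).1 h)

theorem not_dvd_prod {p : ℕ} (hp : p.Prime) {ι : Type*} {s : Finset ι} {f : ι → ℕ}
    (h : ∀ i ∈ s, ¬ p ∣ f i) : ¬ p ∣ ∏ i ∈ s, f i := fun hd => by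
  obtain ⟨i, hi, hd⟩ := (hp.prime.dvd_finset_prod_iff f).1 hd
  exact h i hi hd

/-- The order `c` has `p`-part `p ^ k` and is below the two bounds (the second when `3 M ≤ 5 N`). -/
theorem bound_of_card {p q a c d N M R : ℕ} (hp : p.Prime) (hq : q = p ^ a) (ha : a ≠ 0)
    (hd : ¬ p ∣ d) (hN : 0 < N) (e : d * c = q ^ N * R) (hR : ¬ p ∣ R) (hlt : R < q ^ M)
    (hM : M ≤ 2 * N) :
    c.factorization p = a * N ∧ c < p ^ (3 * c.factorization p) ∧
      (3 * M ≤ 5 * N → c ^ 3 < p ^ (8 * c.factorization p)) := by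
  have hq1 : 1 ≤ q := hq ▸ Nat.one_le_pow _ _ hp.pos
  have hR0 : R ≠ 0 := fun h => hR (h ▸ dvd_zero p)
  have hd0 : d ≠ 0 := fun h => hd (h ▸ dvd_zero p)
  have hqN : q ^ N ≠ 0 := pow_ne_zero _ (by omega)
  have hc0 : c ≠ 0 := fun h => by
    rw [h, mul_zero] at e
    exact (mul_ne_zero hqN hR0) e.symm
  have hk : c.factorization p = a * N := by
    have h := congrArg (fun n => n.factorization p) e
    simp only [Nat.factorization_mul hd0 hc0, Nat.factorization_mul hqN hR0, Finsupp.add_apply,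
      Nat.factorization_eq_zero_of_not_dvd hd, Nat.factorization_eq_zero_of_not_dvd hR, zero_add,
      add_zero] at h
    rw [h, hq, ← pow_mul, hp.factorization_pow, Finsupp.single_eq_same]
  have hc : c < q ^ (N + M) := by
    have h1 : c ≤ d * c := Nat.le_mul_of_pos_left c (Nat.pos_of_ne_zero hd0)
    rw [e] at h1
    refine h1.trans_lt ?_
    rw [pow_add]
    exact Nat.mul_lt_mul_of_pos_left hlt (Nat.pos_of_ne_zero hqN)
  refine ⟨hk, ?_, fun h35 => ?_⟩
  · rw [hk, show 3 * (a * N) = a * (3 * N) by ring, pow_mul, ← hq]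
    exact hc.trans_le (Nat.pow_le_pow_right hq1 (by omega))
  · rw [hk, show 8 * (a * N) = a * (8 * N) by ring, pow_mul, ← hq]
    refine (Nat.pow_lt_pow_left hc three_ne_zero).trans_le ?_
    rw [← pow_mul]
    exact Nat.pow_le_pow_right hq1 (by omega)

theorem sub_one_lt_pow {q e : ℕ} (hq : 2 ≤ q) : q ^ e - 1 < q ^ e :=
  Nat.sub_lt (Nat.one_le_pow _ _ (by omega)) one_pos

theorem add_one_le_pow {q e : ℕ} (hq : 2 ≤ q) : q ^ e + 1 ≤ q ^ (e + 1) := by
  rw [pow_succ]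
  have := Nat.one_le_pow e q (by omega)
  nlinarith

theorem prod_sub_one_lt {q : ℕ} (hq : 2 ≤ q) (e : ℕ → ℕ) :
    ∀ n, 0 < n → ∏ i ∈ Finset.range n, (q ^ e i - 1) < q ^ ∑ i ∈ Finset.range n, e i := by
  intro n hn
  induction n with
  | zero => omega
  | succ n ih =>
    rcases Nat.eq_zero_or_pos n with rfl | hn'
    · simpa using sub_one_lt_pow (e := e 0) hq
    rw [Finset.prod_range_succ, Finset.sum_range_succ, pow_add]
    exact Nat.mul_lt_mul_of_lt_of_le (ih hn') (Nat.sub_le _ 1) (pow_pos (by omega) _)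

theorem sum_two_mul (m : ℕ) : ∑ i ∈ Finset.range m, 2 * (i + 1) = m * (m + 1) := by
  induction m with
  | zero => rfl
  | succ m ih => rw [Finset.sum_range_succ, ih]; ring

/-- `∏ (q^(2i) - 1) < q^(m(m+1))`. -/
theorem even_prod_lt {q : ℕ} (hq : 2 ≤ q) {m : ℕ} (hm : 0 < m) :
    ∏ i ∈ Finset.range m, (q ^ (2 * (i + 1)) - 1) < q ^ (m * (m + 1)) :=
  sum_two_mul m ▸ prod_sub_one_lt hq (fun i => 2 * (i + 1)) m hm

theorem not_dvd_even_prod {p q : ℕ} (hp : p.Prime) (hq : p ∣ q) (hq1 : 1 ≤ q) (m : ℕ) :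
    ¬ p ∣ ∏ i ∈ Finset.range m, (q ^ (2 * (i + 1)) - 1) :=
  not_dvd_prod hp fun i _ => not_dvd_pow_sub_one hp hq hq1 (by omega)

/-- The factors of the unitary order after the first. -/
def uProd (q n : ℕ) : ℕ :=
  ∏ i ∈ Finset.range n, (if Even (i + 1) then q ^ (i + 2) + 1 else q ^ (i + 2) - 1)

theorem uProd_lt {q : ℕ} (hq : 2 ≤ q) :
    ∀ k, uProd q (2 * k + 2) < q ^ ((k + 1) * (2 * k + 5)) ∧
      uProd q (2 * k + 3) < q ^ ((k + 1) * (2 * k + 5) + (2 * k + 4)) := by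
  have step : ∀ k c, uProd q (2 * k) ≤ q ^ c → uProd q (2 * k + 2) < q ^ (c + (4 * k + 5)) := by
    intro k c hc
    rw [uProd, Finset.prod_range_succ, Finset.prod_range_succ, ← uProd,
      if_neg (show ¬ Even (2 * k + 1) by simp [parity_simps]),
      if_pos (show Even (2 * k + 1 + 1) by simp [parity_simps]), mul_assoc, pow_add q c]
    refine Nat.mul_lt_mul_of_le_of_lt hc ?_ (pow_pos (by omega) _)
    have h1 : q ^ (2 * k + 2) < q ^ (2 * k + 1 + 2) := Nat.pow_lt_pow_right (by omega) (by omega)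
    have h2 := Nat.one_le_pow (2 * k + 2) q (by omega)
    have h3 : q ^ (2 * k + 2) * q ^ (2 * k + 1 + 2) = q ^ (4 * k + 5) := by
      rw [← pow_add]; congr 1; ring
    obtain ⟨a, ha⟩ : ∃ a, q ^ (2 * k + 2) = a + 1 := ⟨q ^ (2 * k + 2) - 1, by omega⟩
    rw [ha] at h1 h3 ⊢
    simp only [Nat.add_sub_cancel]
    nlinarith
  have odd : ∀ k c, uProd q (2 * k + 2) < q ^ c → uProd q (2 * k + 3) < q ^ (c + (2 * k + 4)) := by
    intro k c hc
    rw [uProd, Finset.prod_range_succ, ← uProd,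
      if_neg (show ¬ Even (2 * k + 2 + 1) by simp [parity_simps]), pow_add q c]
    exact Nat.mul_lt_mul_of_lt_of_le hc (Nat.sub_le _ 1) (pow_pos (by omega) _)
  intro k
  induction k with
  | zero =>
    have := step 0 0 (by simp [uProd])
    exact ⟨this, odd 0 _ this⟩
  | succ k ih =>
    have := step (k + 1) _ (show uProd q (2 * (k + 1)) ≤ _ from ih.1.le)
    have h2 : uProd q (2 * (k + 1) + 2) < q ^ ((k + 1 + 1) * (2 * (k + 1) + 5)) := by
      convert this using 2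
      ring
    exact ⟨h2, odd (k + 1) _ h2⟩

theorem not_dvd_uProd {p q : ℕ} (hp : p.Prime) (hq : p ∣ q) (hq1 : 1 ≤ q) (n : ℕ) :
    ¬ p ∣ uProd q n :=
  not_dvd_prod hp fun i _ => by
    split
    · exact not_dvd_pow_add_one hp hq (by omega)
    · exact not_dvd_pow_sub_one hp hq hq1 (by omega)

end Cfsg.Agent.KSG.OrdBound
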