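import Cfsg.Agent.KSG.OrderBound
import Cfsg.Agent.Suzuki.LieModel
import Cfsg.Agent.S1059
import Cfsg.Agent.S1062
import Cfsg.Agent.S1063
import Cfsg.Agent.S1064
import Cfsg.Agent.S1065
import Cfsg.Agent.S1066
import Cfsg.Agent.S1067
import Cfsg.Agent.S1068
import Cfsg.Agent.S1069
import Cfsg.Prelude.Def_LieTypeChar

/-!
# The bound family by family
-/

set_option autoImplicit false

namespace Cfsg.Agent.KSG.OrdBound

/-- The two bounds on a cardinality. -/
def Bounds (p c : ℕ) : Prop :=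
  c < p ^ (3 * c.factorization p) ∧ c ^ 3 < p ^ (8 * c.factorization p)

theorem bounds_of_card {p q a c d N M R : ℕ} (hp : p.Prime) (hq : q = p ^ a) (ha : a ≠ 0)
    (hd : ¬ p ∣ d) (hN : 0 < N) (e : d * c = q ^ N * R) (hR : ¬ p ∣ R) (hlt : R < q ^ M)
    (hM : 3 * M ≤ 5 * N) : Bounds p c :=
  ⟨(bound_of_card hp hq ha hd hN e hR hlt (by omega)).2.1,
    (bound_of_card hp hq ha hd hN e hR hlt (by omega)).2.2 hM⟩

theorem exists_pow_card {p : ℕ} (hp : p.Prime) (F : Type) [Field F] [Fintype F] [CharP F p] :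
    ∃ a, a ≠ 0 ∧ Fintype.card F = p ^ a := by
  have : Fact p.Prime := ⟨hp⟩
  obtain ⟨n, -, h⟩ := FiniteField.card F p
  exact ⟨n, n.pos.ne', h⟩

theorem exists_pow_sub {p : ℕ} (hp : p.Prime) (F : Type) [Field F] [Fintype F] [CharP F p] {q e : ℕ}
    (he : e ≠ 0) (h : Fintype.card F = q ^ e) : ∃ a, a ≠ 0 ∧ q = p ^ a := by
  obtain ⟨n, -, hn⟩ := exists_pow_card hp F
  obtain ⟨a, -, ha⟩ := (Nat.dvd_prime_pow hp).1 (hn ▸ h ▸ dvd_pow_self q he)
  refine ⟨a, fun h0 => ?_, ha⟩
  subst h0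
  have := Fintype.one_lt_card (α := F)
  rw [h, ha] at this
  simp at this

variable {p : ℕ}

theorem two_le_pow (hp : p.Prime) {q a : ℕ} (hq : q = p ^ a) (ha : a ≠ 0) : 2 ≤ q :=
  hq ▸ Nat.one_lt_pow ha hp.one_lt

theorem dvd_q {q a : ℕ} (hq : q = p ^ a) (ha : a ≠ 0) : p ∣ q := hq ▸ dvd_pow_self p ha

theorem not_dvd_gcd_right (hp : p.Prime) {m n : ℕ} (h : ¬ p ∣ n) : ¬ p ∣ Nat.gcd m n :=
  fun hd => h (hd.trans (Nat.gcd_dvd_right m n))

section

variable (hp : p.Prime)
include hp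

theorem bounds_PSL (F : Type) [Field F] [Fintype F] [CharP F p] (n : ℕ) (hn : 2 ≤ n) :
    (n = 2 ∧ Fintype.card F = p ^ (Nat.card (Matrix.ProjectiveSpecialLinearGroup (Fin n) F)).factorization p ∧
        Nat.card (Matrix.ProjectiveSpecialLinearGroup (Fin n) F) <
          p ^ (3 * (Nat.card (Matrix.ProjectiveSpecialLinearGroup (Fin n) F)).factorization p)) ∨
      Bounds p (Nat.card (Matrix.ProjectiveSpecialLinearGroup (Fin n) F)) := by
  obtain ⟨a, ha, hq⟩ := exists_pow_card hp F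
  have h2 := two_le_pow hp hq ha
  have : NeZero n := ⟨by omega⟩
  obtain ⟨k, rfl⟩ : ∃ k, n = k + 2 := ⟨n - 2, by omega⟩
  set q := Fintype.card F
  set R := ∏ i ∈ Finset.range (k + 1), (q ^ (k + 2 - i) - 1) with hRdef
  have hdiv : (k + 2) * (k + 2 - 1) / 2 = ∑ i ∈ Finset.range (k + 2), i := (Finset.sum_range_id _).symm
  have hpos : 0 < q - 1 := by omega
  have e : Nat.gcd (k + 2) (q - 1) * Nat.card (Matrix.ProjectiveSpecialLinearGroup (Fin (k + 2)) F) =
      q ^ ((k + 2) * (k + 2 - 1) / 2) * R := by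
    have h := Linear.card_PSL_mul (F := F) (ι := Fin (k + 2))
    rw [Fintype.card_fin] at h
    rw [h]
    refine Nat.eq_of_mul_eq_mul_left hpos ?_
    rw [← Linear.card_units_eq, ← Linear.card_GL_eq_mul_card_SL, Linear.card_GL_factor, Linear.card_units_eq,
      Fin.prod_univ_eq_prod_range (fun i => q ^ (k + 2 - i) - 1), Finset.prod_range_succ, hRdef,
      show k + 2 - (k + 1) = 1 by omega, pow_one]
    ring
  have hN : 0 < (k + 2) * (k + 2 - 1) / 2 := by
    have : 2 ≤ (k + 2) * (k + 2 - 1) := Nat.mul_le_mul (show 2 ≤ k + 2 by omega) (show 1 ≤ k + 2 - 1 by omega)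
    omega
  have hR : ¬ p ∣ R := not_dvd_prod hp fun i hi =>
    not_dvd_pow_sub_one hp (dvd_q hq ha) (by omega) (by simp at hi; omega)
  have hlt : R < q ^ ∑ i ∈ Finset.range (k + 1), (k + 2 - i) :=
    prod_sub_one_lt h2 (fun i => k + 2 - i) (k + 1) (by omega)
  have hd : ¬ p ∣ Nat.gcd (k + 2) (q - 1) := not_dvd_gcd_right hp (by
    simpa using not_dvd_pow_sub_one (e := 1) hp (dvd_q hq ha) (by omega : 1 ≤ q) one_ne_zero)
  rcases Nat.eq_zero_or_pos k with rfl | hk
  · left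
    obtain ⟨h1, h3, -⟩ := bound_of_card hp hq ha hd hN e hR hlt (by simp [Finset.sum_range_succ])
    refine ⟨rfl, ?_, h3⟩
    rw [h1, hq]
    simp
  · right
    refine bounds_of_card hp hq ha hd hN e hR hlt ?_
    have hs : ∀ m, ∑ i ∈ Finset.range (m + 1), (m + 2 - i) = (∑ i ∈ Finset.range (m + 2), i) + (m + 1) := by
      intro m
      induction m with
      | zero => rfl
      | succ m ih =>
        rw [Finset.sum_range_succ' (fun i => m + 1 + 2 - i)]
        simp only [show ∀ i, m + 1 + 2 - (i + 1) = m + 2 - i from fun i => by omega]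
        rw [ih, Finset.sum_range_succ (fun i => i) (m + 2)]
        omega
    rw [hs, hdiv]
    have : 3 * (k + 1) ≤ 2 * ∑ i ∈ Finset.range (k + 2), i := by
      rw [← hdiv]
      have hev : 2 ∣ (k + 2) * (k + 2 - 1) := by
        rw [show k + 2 - 1 = k + 1 by omega, mul_comm]
        exact (Nat.even_mul_succ_self (k + 1)).two_dvd
      rw [Nat.mul_div_cancel' hev, show k + 2 - 1 = k + 1 by omega]
      exact Nat.mul_le_mul_right _ (by omega)
    omega

theorem bounds_PSp (F : Type) [Field F] [Fintype F] [CharP F p] (m : ℕ) (hm : 2 ≤ m) :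
    Bounds p (Nat.card (Cfsg.PSp m F)) := by
  obtain ⟨a, ha, hq⟩ := exists_pow_card hp F
  have h2 := two_le_pow hp hq ha
  have : NeZero m := ⟨by omega⟩
  have h := Subgroup.card_eq_card_quotient_mul_card_subgroup
    (Subgroup.center (Matrix.symplecticGroup (Fin m) F))
  rw [SympSub.card_symplecticGroup, Linear.Symp.card_center] at h
  have e : Nat.gcd 2 (Fintype.card F - 1) * Nat.card (Cfsg.PSp m F) =
      Fintype.card F ^ (m ^ 2) * ∏ i ∈ Finset.range m, (Fintype.card F ^ (2 * (i + 1)) - 1) := by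
    rw [mul_comm]
    exact h.symm
  refine bounds_of_card hp hq ha (not_dvd_gcd_right hp ?_) (by positivity) e
    (not_dvd_even_prod hp (dvd_q hq ha) (by omega) m) (even_prod_lt h2 (by omega)) (by nlinarith)
  simpa using not_dvd_pow_sub_one (e := 1) hp (dvd_q hq ha) (by omega : 1 ≤ Fintype.card F) one_ne_zero

theorem bounds_PSU (F : Type) [Field F] [Fintype F] [CharP F p] (n q : ℕ)
    (hF : Fintype.card F = q ^ 2) (hn : 3 ≤ n) : Bounds p (Nat.card (Cfsg.PSU n F q)) := by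
  obtain ⟨a, ha, hq⟩ := exists_pow_sub hp F two_ne_zero hF
  have h2 := two_le_pow hp hq ha
  have h := Cfsg.Agent.S0280.result hF n (by omega)
  obtain ⟨j, rfl⟩ : ∃ j, n = j + 1 := ⟨n - 1, by omega⟩
  have e : Nat.gcd (j + 1) (q + 1) * Nat.card (Cfsg.PSU (j + 1) F q) =
      q ^ ((j + 1) * j / 2) * uProd q j := by
    rw [Finset.prod_range_succ', if_pos Even.zero, zero_add, pow_one, Nat.add_sub_cancel] at h
    refine Nat.eq_of_mul_eq_mul_left (show 0 < q + 1 by omega) ?_
    rw [mul_left_comm, h, uProd]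
    ring
  have hd : ¬ p ∣ Nat.gcd (j + 1) (q + 1) := not_dvd_gcd_right hp (by
    simpa using not_dvd_pow_add_one (e := 1) hp (dvd_q hq ha) one_ne_zero)
  have hR := not_dvd_uProd hp (dvd_q hq ha) (by omega : 1 ≤ q) j
  rcases Nat.even_or_odd j with ⟨k, hk⟩ | ⟨k, hk⟩
  · obtain ⟨k, rfl⟩ : ∃ i, k = i + 1 := ⟨k - 1, by omega⟩
    obtain rfl : j = 2 * k + 2 := by omega
    rw [show (2 * k + 2 + 1) * (2 * k + 2) / 2 = (2 * k + 3) * (k + 1) by
      rw [show (2 * k + 2 + 1) * (2 * k + 2) = (2 * k + 3) * (k + 1) * 2 by ring,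
        Nat.mul_div_cancel _ two_pos]] at e
    exact bounds_of_card hp hq ha hd (by positivity) e hR (uProd_lt h2 k).1 (by nlinarith)
  · obtain ⟨k, rfl⟩ : ∃ i, k = i + 1 := ⟨k - 1, by omega⟩
    obtain rfl : j = 2 * k + 3 := by omega
    rw [show (2 * k + 3 + 1) * (2 * k + 3) / 2 = (k + 2) * (2 * k + 3) by
      rw [show (2 * k + 3 + 1) * (2 * k + 3) = (k + 2) * (2 * k + 3) * 2 by ring,
        Nat.mul_div_cancel _ two_pos]] at e
    exact bounds_of_card hp hq ha hd (by positivity) e hR (uProd_lt h2 k).2 (by nlinarith)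

theorem bounds_odd (F : Type) [Field F] [Fintype F] [CharP F p] (m : ℕ) (hm : 3 ≤ m)
    (hodd : Odd (Fintype.card F)) : Bounds p (Nat.card (Cfsg.POmega F (Cfsg.quadFormOdd m F))) := by
  obtain ⟨a, ha, hq⟩ := exists_pow_card hp F
  have h2 := two_le_pow hp hq ha
  refine bounds_of_card hp hq ha (fun hd => ?_) (by positivity) (Cfsg.Agent.S0292.result rfl hodd m hm)
    (not_dvd_even_prod hp (dvd_q hq ha) (by omega) m) (even_prod_lt h2 (by omega)) (by nlinarith)
  obtain rfl := (Nat.prime_dvd_prime_iff_eq hp Nat.prime_two).1 hd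
  exact Nat.not_even_iff_odd.2 hodd (hq ▸ (Nat.even_pow.2 ⟨even_two, ha⟩))

theorem bounds_plus (F : Type) [Field F] [Fintype F] [CharP F p] (m : ℕ) (hm : 4 ≤ m) :
    Bounds p (Nat.card (Cfsg.POmega F (Cfsg.quadFormPlus m F))) := by
  obtain ⟨a, ha, hq⟩ := exists_pow_card hp F
  have h2 := two_le_pow hp hq ha
  obtain ⟨k, rfl⟩ : ∃ k, m = k + 4 := ⟨m - 4, by omega⟩
  set q := Fintype.card F
  have h := Cfsg.Agent.S0293.result (F := F) (q := q) rfl (k + 4) hm
  rw [mul_assoc (q ^ _)] at h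
  simp only [show k + 4 - 1 = k + 3 by omega] at h ⊢
  have hsub := not_dvd_pow_sub_one (e := k + 4) hp (dvd_q hq ha) (by omega : 1 ≤ q) (by omega)
  refine bounds_of_card hp hq ha (not_dvd_gcd_right hp hsub) (by positivity) h
    (fun hd => (hp.dvd_mul.1 hd).elim hsub (not_dvd_even_prod hp (dvd_q hq ha) (by omega) _))
    (M := (k + 4) + (k + 3) * (k + 4)) ?_ ?_
  · rw [pow_add q (k + 4)]
    exact Nat.mul_lt_mul'' (sub_one_lt_pow h2) (even_prod_lt h2 (m := k + 3) (by omega))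
  · nlinarith

theorem bounds_minus (F : Type) [Field F] [Fintype F] [CharP F p] (m : ℕ) (a b : F) (hm : 4 ≤ m)
    (hab : ∀ z₁ z₂ : F, z₁ ^ 2 + a * z₁ * z₂ + b * z₂ ^ 2 = 0 → z₁ = 0 ∧ z₂ = 0) :
    Bounds p (Nat.card (Cfsg.POmega F (Cfsg.quadFormMinus (m - 1) F a b))) := by
  obtain ⟨c, hc, hq⟩ := exists_pow_card hp F
  have h2 := two_le_pow hp hq hc
  obtain ⟨k, rfl⟩ : ∃ k, m = k + 4 := ⟨m - 4, by omega⟩
  set q := Fintype.card F
  have h := Cfsg.Agent.S0294.result (F := F) (q := q) rfl (k + 4) hm a b hab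
  rw [mul_assoc (q ^ _)] at h
  simp only [show k + 4 - 1 = k + 3 by omega] at h ⊢
  have hadd := not_dvd_pow_add_one (e := k + 4) hp (dvd_q hq hc) (by omega)
  refine bounds_of_card hp hq hc (not_dvd_gcd_right hp hadd) (by positivity) h
    (fun hd => (hp.dvd_mul.1 hd).elim hadd (not_dvd_even_prod hp (dvd_q hq hc) (by omega) _))
    (M := (k + 5) + (k + 3) * (k + 4)) ?_ ?_
  · rw [pow_add q (k + 5)]
    exact Nat.mul_lt_mul_of_le_of_lt (add_one_le_pow h2) (even_prod_lt h2 (m := k + 3) (by omega))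
      (pow_pos (by omega) _)
  · nlinarith

theorem bounds_list {q a c d N : ℕ} (hq : q = p ^ a) (ha : a ≠ 0) (hd : ¬ p ∣ d)
    (l : List (Bool × ℕ)) (hl : l ≠ [] ∧ ∀ x ∈ l, x.2 ≠ 0)
    (hsub : ∃ x ∈ l, x.1 = false) (hN : 0 < N)
    (e : d * c = q ^ N * (l.map fun x => cond x.1 (q ^ x.2 + 1) (q ^ x.2 - 1)).prod)
    (hM : 3 * (l.map fun x => cond x.1 (x.2 + 1) x.2).sum ≤ 5 * N) : Bounds p c := by
  have h2 := two_le_pow hp hq ha
  refine bounds_of_card hp hq ha hd hN e ?_ (M := (l.map fun x => cond x.1 (x.2 + 1) x.2).sum) ?_ hM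
  · intro hdvd
    obtain ⟨y, hy, hdy⟩ := (hp.prime.dvd_prod_iff).1 hdvd
    obtain ⟨⟨b, x⟩, hx, rfl⟩ := List.mem_map.1 hy
    cases b
    · exact not_dvd_pow_sub_one hp (dvd_q hq ha) (by omega) (hl.2 _ hx) hdy
    · exact not_dvd_pow_add_one hp (dvd_q hq ha) (hl.2 _ hx) hdy
  · obtain ⟨⟨b, x⟩, hx, hb⟩ := hsub
    obtain rfl : b = false := hb
    clear e hM hl
    induction l with
    | nil => simp at hx
    | cons y l ih =>
      have hle : ∀ m : List (Bool × ℕ), (m.map fun x => cond x.1 (q ^ x.2 + 1) (q ^ x.2 - 1)).prod ≤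
          q ^ (m.map fun x => cond x.1 (x.2 + 1) x.2).sum := by
        intro m
        induction m with
        | nil => simp
        | cons z m ihm =>
          obtain ⟨bz, z⟩ := z
          simp only [List.map_cons, List.prod_cons, List.sum_cons, pow_add]
          refine Nat.mul_le_mul ?_ ihm
          cases bz
          · exact Nat.sub_le _ 1
          · exact add_one_le_pow h2
      obtain ⟨by', y⟩ := y
      simp only [List.map_cons, List.prod_cons, List.sum_cons, pow_add]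
      rcases List.mem_cons.1 hx with h | h
      · cases h
        exact Nat.mul_lt_mul_of_lt_of_le (sub_one_lt_pow h2) (hle l) (pow_pos (by omega) _)
      · refine Nat.mul_lt_mul_of_le_of_lt ?_ (ih h) (pow_pos (by omega) _)
        cases by'
        · exact Nat.sub_le _ 1
        · exact add_one_le_pow h2

theorem not_dvd_one' : ¬ p ∣ 1 := hp.not_dvd_one

theorem bounds_exceptional (F : Type) [Field F] [Fintype F] [CharP F p] :
    Bounds p (Nat.card ↥(Cfsg.Lie.chevG2.group F)) ∧ Bounds p (Nat.card ↥(Cfsg.Lie.chevF4.group F)) ∧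
      Bounds p (Nat.card ↥(Cfsg.Lie.chevE6.group F)) ∧ Bounds p (Nat.card ↥(Cfsg.Lie.chevE7.group F)) ∧
      Bounds p (Nat.card ↥(Cfsg.Lie.chevE8.group F)) := by
  obtain ⟨a, ha, hq⟩ := exists_pow_card hp F
  have hsub : ¬ p ∣ Fintype.card F - 1 := by
    simpa using not_dvd_pow_sub_one (e := 1) hp (dvd_q hq ha)
      (Nat.one_le_iff_ne_zero.2 Fintype.card_ne_zero) one_ne_zero
  refine ⟨?_, ?_, ?_, ?_, ?_⟩
  · exact bounds_list hp hq ha (not_dvd_one' hp) [(false, 2), (false, 6)] (by simp) (by simp) (N := 6)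
      (by norm_num) (by rw [one_mul, Cfsg.Agent.S1059.result rfl]; simp [mul_assoc]) (by norm_num)
  · exact bounds_list hp hq ha (not_dvd_one' hp) [(false, 2), (false, 6), (false, 8), (false, 12)] (by simp)
      (by simp) (N := 24) (by norm_num) (by rw [one_mul, Cfsg.Agent.S1062.result rfl]; simp [mul_assoc])
      (by norm_num)
  · exact bounds_list hp hq ha (not_dvd_gcd_right (m := 3) hp hsub)
      [(false, 2), (false, 5), (false, 6), (false, 8), (false, 9), (false, 12)] (by simp) (by simp) (N := 36)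
      (by norm_num) (by rw [Cfsg.Agent.S1063.result rfl]; simp [mul_assoc]) (by norm_num)
  · exact bounds_list hp hq ha (not_dvd_gcd_right (m := 2) hp hsub)
      [(false, 2), (false, 6), (false, 8), (false, 10), (false, 12), (false, 14), (false, 18)] (by simp)
      (by simp) (N := 63) (by norm_num) (by rw [Cfsg.Agent.S1064.result rfl]; simp [mul_assoc]) (by norm_num)
  · exact bounds_list hp hq ha (not_dvd_one' hp)
      [(false, 2), (false, 8), (false, 12), (false, 14), (false, 18), (false, 20), (false, 24), (false, 30)]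
      (by simp) (by simp) (N := 120) (by norm_num)
      (by rw [one_mul, Cfsg.Agent.S1065.result rfl]; simp [mul_assoc]) (by norm_num)


theorem bounds_E6D4 (K : Type) [Field K] [Fintype K] [CharP K p] (q : ℕ) (hq' : IsPrimePow q) :
    (Fintype.card K = q ^ 2 → Bounds p (Nat.card ↥(Cfsg.Lie.twistedE6 K q))) ∧
      (Fintype.card K = q ^ 3 → Bounds p (Nat.card ↥(Cfsg.Lie.twistedD4 K q))) := by
  constructor <;> intro hK
  · obtain ⟨a, ha, hq⟩ := exists_pow_sub hp K two_ne_zero hK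
    exact bounds_list hp hq ha (not_dvd_gcd_right (m := 3) hp (by
        simpa using not_dvd_pow_add_one (e := 1) hp (dvd_q hq ha) one_ne_zero))
      [(false, 2), (true, 5), (false, 6), (false, 8), (true, 9), (false, 12)] (by simp) (by simp) (N := 36)
      (by norm_num) (by rw [Cfsg.Agent.S1066.result hq' hK]; simp [mul_assoc]) (by norm_num)
  · obtain ⟨a, ha, hq⟩ := exists_pow_sub hp K three_ne_zero hK
    have h2 := two_le_pow hp hq ha
    have h9 : q ^ 8 + q ^ 4 + 1 ≤ q ^ 9 := by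
      have h8 : 2 * q ^ 8 ≤ q ^ 9 := by
        rw [pow_succ q 8, mul_comm 2]
        exact Nat.mul_le_mul_left _ h2
      have h84 : q ^ 4 < q ^ 8 := Nat.pow_lt_pow_right (by omega) (by norm_num)
      omega
    refine bounds_of_card hp hq ha (not_dvd_one' hp) (N := 12) (by norm_num)
      (R := (q ^ 2 - 1) * ((q ^ 6 - 1) * (q ^ 8 + q ^ 4 + 1))) ?_ ?_ (M := 2 + (6 + 9)) ?_ (by norm_num)
    · rw [one_mul, Cfsg.Agent.S1067.result hq' hK]
      ring
    · intro hd
      rcases hp.dvd_mul.1 hd with h | h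
      · exact not_dvd_pow_sub_one hp (dvd_q hq ha) (by omega) (by norm_num) h
      rcases hp.dvd_mul.1 h with h | h
      · exact not_dvd_pow_sub_one hp (dvd_q hq ha) (by omega) (by norm_num) h
      · refine hp.not_dvd_one ((Nat.dvd_add_right ?_).1 h)
        exact dvd_add ((dvd_q hq ha).trans (dvd_pow_self q (by norm_num)))
          ((dvd_q hq ha).trans (dvd_pow_self q (by norm_num)))
    · rw [pow_add q 2, pow_add q 6]
      exact Nat.mul_lt_mul'' (sub_one_lt_pow h2)
        (Nat.mul_lt_mul_of_lt_of_le (sub_one_lt_pow h2) h9 (pow_pos (by omega) _))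

end

theorem bounds_twistedF4 (K : Type) [Field K] [Fintype K] (m : ℕ)
    (hK : Fintype.card K = 2 ^ (2 * m + 1)) : Bounds 2 (Nat.card ↥(Cfsg.Lie.twistedF4 K (2 ^ m))) :=
  bounds_list Nat.prime_two (a := 2 * m + 1) rfl (by omega) (not_dvd_one' Nat.prime_two)
    [(false, 1), (true, 3), (false, 4), (true, 6)] (by simp) (by simp) (N := 12) (by norm_num)
    (by rw [one_mul, Cfsg.Agent.S1068.result hK]; simp [mul_assoc]) (by norm_num)

theorem bounds_twistedG2 (K : Type) [Field K] [Fintype K] (m : ℕ)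
    (hK : Fintype.card K = 3 ^ (2 * m + 1)) : Bounds 3 (Nat.card ↥(Cfsg.Lie.twistedG2 K (3 ^ m))) :=
  bounds_list Nat.prime_three (a := 2 * m + 1) rfl (by omega) (not_dvd_one' Nat.prime_three)
    [(false, 1), (true, 3)] (by simp) (by simp) (N := 3) (by norm_num)
    (by rw [one_mul, Cfsg.Agent.S1069.result hK]; simp [mul_assoc]) (by norm_num)

theorem bounds_suzuki (F : Type) [Field F] [Fintype F] (m : ℕ) (hm : 1 ≤ m)
    (hF : Fintype.card F = 2 ^ (2 * m + 1)) : Bounds 2 (Nat.card ↥(Cfsg.Lie.Sz F (2 ^ (m + 1)))) := by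
  haveI : Cfsg.Agent.Suzuki.SuzukiField F m := ⟨hm, hF⟩
  obtain ⟨b, hb⟩ : ∃ b, (2 : ℕ) ^ (2 * m + 1) = b + 2 :=
    ⟨2 ^ (2 * m + 1) - 2, by have := Nat.one_lt_pow (show 2 * m + 1 ≠ 0 by omega) one_lt_two; omega⟩
  refine bounds_of_card Nat.prime_two (q := 2 ^ (2 * m + 1)) (a := 2 * m + 1) rfl (by omega)
    (not_dvd_one' Nat.prime_two) (N := 2) (by norm_num)
    (R := ((2 ^ (2 * m + 1)) ^ 2 + 1) * ((2 ^ (2 * m + 1)) ^ 1 - 1)) ?_ ?_ (M := 3) ?_ (by norm_num)
  · rw [one_mul, Cfsg.Agent.Suzuki.card_lieSz, pow_one]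
    ring
  · intro hd
    have h2 : 2 ∣ 2 ^ (2 * m + 1) := dvd_pow_self 2 (by omega)
    rcases Nat.prime_two.dvd_mul.1 hd with h | h
    · exact not_dvd_pow_add_one Nat.prime_two h2 two_ne_zero h
    · exact not_dvd_pow_sub_one Nat.prime_two h2 (by omega) one_ne_zero h
  · rw [hb, pow_one, show b + 2 - 1 = b + 1 by omega]
    nlinarith

end Cfsg.Agent.KSG.OrdBound
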