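import Cfsg.Agent.KSG.TwAutGL
import Cfsg.Agent.ChevTw.TwD4Diag
import Cfsg.Agent.ChevTw.TwD4Thms

/-!
# Outer automorphisms of ³D₄(q)
-/

set_option autoImplicit false

namespace Cfsg.Agent.KSG.TwAutD4

open Cfsg.Lie Cfsg.Agent.ChevGrp Cfsg.Agent.ChevTw Cfsg.Agent.KSG Cfsg.Agent.KSG.TwAut

theorem tableD4 :
    (∀ J : Fin twD4.nOrb, (∀ r ∈ twD4.posList J,
      act chevD4 (twD4.longSeq.flatMap (twD4.wJ chevD4)).reverse r ∈ (twD4.posList J).map chevD4.neg) ∧
      ∀ r ∈ (twD4.posList J).map chevD4.neg,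
        act chevD4 (twD4.longSeq.flatMap (twD4.wJ chevD4)) r ∈ twD4.posList J) := by
  decide +kernel

theorem cartan_link :
    chevD4.cartan 1 (chevD4.simple 0) = -1 ∧ chevD4.cartan 1 (chevD4.simple 2) = -1 ∧
      chevD4.cartan 1 (chevD4.simple 3) = -1 := by
  decide +kernel

section

variable {K : Type*} [Field K] [Fintype K] {q : ℕ} (hq : IsPrimePow q) (hK : Fintype.card K = q ^ 3)

/-- The parameter field of an orbit. -/
noncomputable def fld (J : Fin twD4.nOrb) : Subfield K :=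
  if J.val = 0 then fixField (frobD4 hq hK) else ⊤

theorem pow_eq_of_mem {J : Fin twD4.nOrb} {t : K} (h : t ∈ fld hq hK J) (hJ : J.val = 0) : t ^ q = t := by
  rw [fld, if_pos hJ, mem_fixField, frobD4_apply] at h
  exact h

theorem mem_fld {J : Fin twD4.nOrb} {t : K} (h : J.val = 0 → t ^ q = t) : t ∈ fld hq hK J := by
  rw [fld]
  split_ifs with hJ
  · rw [mem_fixField, frobD4_apply]
    exact h hJ
  · trivial

/-- The coefficients of a word. -/
def coefD4 (q : ℕ) (t : K) : ℕ → K := fun r =>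
  if r = 13 ∨ r = 10 then t ^ q else if r = 12 ∨ r = 11 then t ^ (q ^ 2) else t

/-- The element of a parameter. -/
noncomputable def elem (neg : Bool) (J : Fin twD4.nOrb) (t : ↥(fld hq hK J)) : ↥(grpD4 hq hK).Tw :=
  ⟨(((wordsD4 q (t : K)).getD (bif neg then J.val + 2 else J.val) []).map
      fun p => xGL chevD4 K p.1 p.2).prod, by
    have h := (fixD4 hq hK J neg _).2 ⟨(t : K), pow_eq_of_mem hq hK t.2, rfl⟩
    cases neg
    · exact (grpD4 hq hK).fixPos_mem J h
    · exact (grpD4 hq hK).fixNeg_mem J h⟩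

theorem range_elem (neg : Bool) (J : Fin twD4.nOrb) (g : ↥(grpD4 hq hK).Tw) :
    (g : GL chevD4.Idx K) ∈
        (glSys (rulesD4 K)).US (bif neg then (orbD4 hq hK).negJ J else (orbD4 hq hK).posJ J) ↔
      ∃ t, elem hq hK neg J t = g := by
  constructor
  · intro h
    obtain ⟨t, ht, e⟩ := (fixD4 hq hK J neg g).1 ⟨h, (grpD4 hq hK).fixed g.2⟩
    exact ⟨⟨t, mem_fld hq hK ht⟩, Subtype.ext e.symm⟩
  · rintro ⟨t, rfl⟩
    exact ((fixD4 hq hK J neg _).2 ⟨(t : K), pow_eq_of_mem hq hK t.2, rfl⟩).1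

theorem elem_P (J : Fin twD4.nOrb) (t : ↥(fld hq hK J)) :
    (elem hq hK false J t : GL chevD4.Idx K) = (glSys (rulesD4 K)).P (twD4.posList J) (coefD4 q (t : K)) := by
  fin_cases J <;> simp [elem, wordsD4, Sys.P, TwData.posList, twD4, coefD4] <;> rfl

/-- The frobenius powers on a parameter field. -/
noncomputable def emb (k : ℕ) (J : Fin twD4.nOrb) : ↥(fld hq hK J) →+* K :=
  match k with
  | 0 => (fld hq hK J).subtype
  | k + 1 => (frobD4 hq hK).comp (emb k J)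

theorem emb_zero (J : Fin twD4.nOrb) (t : ↥(fld hq hK J)) : emb hq hK 0 J t = (t : K) := rfl

theorem emb_one (J : Fin twD4.nOrb) (t : ↥(fld hq hK J)) : emb hq hK 1 J t = (t : K) ^ q := by
  show frobD4 hq hK (t : K) = _
  rw [frobD4_apply]

theorem emb_two (J : Fin twD4.nOrb) (t : ↥(fld hq hK J)) : emb hq hK 2 J t = (t : K) ^ (q ^ 2) := by
  show frobD4 hq hK (frobD4 hq hK (t : K)) = _
  rw [frobD4_apply, frobD4_apply, ← pow_mul, pow_two]

/-- A fundamental root element with a twisted parameter. -/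
noncomputable def rootX (i : Fin chevD4.rank) (k : ℕ) (J : Fin twD4.nOrb) (t : ↥(fld hq hK J)) :
    GL chevD4.Idx K :=
  (glSys (rulesD4 K)).x (chevD4.simple i) (emb hq hK k J t)

/-- The negative one. -/
noncomputable def rootY (i : Fin chevD4.rank) (k : ℕ) (J : Fin twD4.nOrb) (t : ↥(fld hq hK J)) :
    GL chevD4.Idx K :=
  (glSys (rulesD4 K)).x (chevD4.neg (chevD4.simple i)) (emb hq hK k J t)

theorem comm2 {a b : Fin chevD4.rank}
    (hab : (chevD4.simple a, chevD4.simple b) ∈ [(18, 13), (18, 12), (13, 12)]) (k l : ℕ) (J : Fin twD4.nOrb) :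
    RankOne.Comm2 (rootX hq hK a k J) (rootY hq hK a k J) (rootX hq hK b l J) (rootY hq hK b l J) := by
  intro t u
  have h : ∀ r ∈ [chevD4.simple a, chevD4.neg (chevD4.simple a)],
      ∀ s ∈ [chevD4.simple b, chevD4.neg (chevD4.simple b)], ∀ x y : K,
        Commute ((glSys (rulesD4 K)).x r x) ((glSys (rulesD4 K)).x s y) := by
    intro r hr s hs x y
    obtain ⟨a1, a2, a3, a4, a5⟩ := commCrossD4 _ hab r hr s hs
    exact x_commute _ a4 a5 a1 a2 a3 x y
  exact ⟨h _ (by simp) _ (by simp) _ _, h _ (by simp) _ (by simp) _ _, h _ (by simp) _ (by simp) _ _,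
    h _ (by simp) _ (by simp) _ _⟩

theorem elem_zero :
    (fun t => (elem hq hK false ⟨0, by decide⟩ t : GL chevD4.Idx K)) =
        rootX hq hK ⟨1, by decide⟩ 0 ⟨0, by decide⟩ ∧
      (fun t => (elem hq hK true ⟨0, by decide⟩ t : GL chevD4.Idx K)) =
        rootY hq hK ⟨1, by decide⟩ 0 ⟨0, by decide⟩ := by
  obtain ⟨n14, n18, n13, n12, s0, s1, s2, s3⟩ := negD4
  constructor <;> funext t <;> simp [elem, wordsD4, rootX, rootY, emb_zero, s1, n14, glSys]

theorem elem_one :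
    (fun t => (elem hq hK false ⟨1, by decide⟩ t : GL chevD4.Idx K)) =
        (fun t => rootX hq hK ⟨0, by decide⟩ 0 ⟨1, by decide⟩ t * rootX hq hK ⟨2, by decide⟩ 1 ⟨1, by decide⟩ t *
          rootX hq hK ⟨3, by decide⟩ 2 ⟨1, by decide⟩ t) ∧
      (fun t => (elem hq hK true ⟨1, by decide⟩ t : GL chevD4.Idx K)) =
        (fun t => rootY hq hK ⟨0, by decide⟩ 0 ⟨1, by decide⟩ t * rootY hq hK ⟨2, by decide⟩ 1 ⟨1, by decide⟩ t *
          rootY hq hK ⟨3, by decide⟩ 2 ⟨1, by decide⟩ t) := by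
  obtain ⟨n14, n18, n13, n12, s0, s1, s2, s3⟩ := negD4
  constructor <;> funext t <;>
    simp [elem, wordsD4, rootX, rootY, emb_zero, emb_one, emb_two, s0, s2, s3, n18, n13, n12, glSys, mul_assoc]

variable {len : ℕ → ℕ} (hR : RootTable chevD4 len)

include hR in
theorem preP_root (i : Fin chevD4.rank) (k : ℕ) (J : Fin twD4.nOrb) :
    RankOne.PreP (rootX hq hK i k J) (rootY hq hK i k J) :=
  RankOne.PreP.root (glSys (rulesD4 K)) (rulesD4 K) hR i (emb hq hK k J)

theorem elem_eq_zero (J : Fin twD4.nOrb) (t : ↥(fld hq hK J))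
    (h : (elem hq hK false J t : GL chevD4.Idx K) = 1) : t = 0 := by
  refine Subtype.ext (wordD4_inj hq hK J (t : K) ((0 : ↥(fld hq hK J)) : K) ?_)
  have h0 : (elem hq hK false J 0 : GL chevD4.Idx K) = 1 := by
    rw [elem_P]
    refine (glSys (rulesD4 K)).P_zero (fun r hr => (orbD4 hq hK).posJ_lt r
      (((twD4_ok.enum_posJ (T := twistD4 hq hK) (fun _ => rfl) rfl J).2 r).1 hr)) fun r _ => ?_
    have := hq.pos
    simp [coefD4, this.ne']
  exact h.trans h0.symm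

include hR in
theorem pair_elem (J : Fin twD4.nOrb) : RankOne.Pair (elem hq hK false J) (elem hq hK true J) := by
  refine RankOne.PreP.pair ?_ (elem_eq_zero hq hK J) (fun a b e => ?_)
  · fin_cases J
    · rw [(elem_zero hq hK).1, (elem_zero hq hK).2]
      exact preP_root hq hK hR _ _ _
    · rw [(elem_one hq hK).1, (elem_one hq hK).2]
      obtain ⟨n14, n18, n13, n12, s0, s1, s2, s3⟩ := negD4
      refine ((preP_root hq hK hR _ _ _).mul (preP_root hq hK hR _ _ _) (comm2 hq hK ?_ _ _ _)).mul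
        (preP_root hq hK hR _ _ _) ?_
      · rw [s0, s2]; simp
      · intro x y
        obtain ⟨h1, h2, h3, h4⟩ := comm2 hq hK (a := ⟨0, by decide⟩) (b := ⟨3, by decide⟩)
          (by rw [s0, s3]; simp) 0 2 ⟨1, by decide⟩ x y
        obtain ⟨k1, k2, k3, k4⟩ := comm2 hq hK (a := ⟨2, by decide⟩) (b := ⟨3, by decide⟩)
          (by rw [s2, s3]; simp) 1 2 ⟨1, by decide⟩ x y
        exact ⟨h1.mul_left k1, h2.mul_left k2, h3.mul_left k3, h4.mul_left k4⟩
  · exact eq_one_of_pos_neg (rulesD4 K) hR J J ((range_elem hq hK false J _).2 ⟨a, rfl⟩)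
      (e ▸ (range_elem hq hK true J _).2 ⟨b, rfl⟩)

include hR in
theorem exists_ambD (c : ∀ J, (↥(fld hq hK J))ˣ) :
    ∃ e : GL chevD4.Idx K ≃* GL chevD4.Idx K,
      (∀ r < chevD4.nroots, ∀ t : K, ∃ u, e ((glSys (rulesD4 K)).x r t) = (glSys (rulesD4 K)).x r u) ∧
      ∀ J t, e (elem hq hK false J t) = elem hq hK false J ((c J : ↥(fld hq hK J)) * t) ∧
        e (elem hq hK true J t) = elem hq hK true J (((c J)⁻¹ : (↥(fld hq hK J))ˣ) * t) := by
  have ne : ∀ J (k : ℕ), emb hq hK k J (c J : ↥(fld hq hK J)) ≠ 0 := fun J k =>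
    (map_ne_zero _).2 (c J).ne_zero
  set u : Fin chevD4.rank → Kˣ := mkD4 (Units.mk0 _ (ne ⟨1, by decide⟩ 0)) (Units.mk0 _ (ne ⟨0, by decide⟩ 0))
    (Units.mk0 _ (ne ⟨1, by decide⟩ 1)) (Units.mk0 _ (ne ⟨1, by decide⟩ 2)) with hu
  obtain ⟨e, he0, he⟩ := exists_amb_diag (rulesD4 K) hR (Aut.chainEdgeOK_of_mem (by simp))
    (chainStepOK_of_mem (by simp)) u
  refine ⟨e, he0, fun J t => ?_⟩
  obtain ⟨z1, z2⟩ := elem_zero hq hK
  obtain ⟨o1, o2⟩ := elem_one hq hK
  have z1' := congrFun z1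
  have z2' := congrFun z2
  have o1' := congrFun o1
  have o2' := congrFun o2
  have hX := fun (i : Fin chevD4.rank) (k : ℕ) (J : Fin twD4.nOrb) (s : ↥(fld hq hK J)) =>
    (show e (rootX hq hK i k J s) =
      (glSys (rulesD4 K)).x (chevD4.simple i) ((u i : K) * emb hq hK k J s) from (he i _).1)
  have hY := fun (i : Fin chevD4.rank) (k : ℕ) (J : Fin twD4.nOrb) (s : ↥(fld hq hK J)) =>
    (show e (rootY hq hK i k J s) =
      (glSys (rulesD4 K)).x (chevD4.neg (chevD4.simple i)) ((u i : K)⁻¹ * emb hq hK k J s) from (he i _).2)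
  rcases J with ⟨_ | _ | j, hJ⟩
  · refine ⟨?_, ?_⟩
    · rw [z1' t, z1' _, hX, rootX, map_mul]
      rfl
    · rw [z2' t, z2' _, hY, rootY, map_mul, Units.val_inv_eq_inv_val, map_inv₀]
      rfl
  · refine ⟨?_, ?_⟩
    · rw [o1' t, o1' _, map_mul, map_mul, hX, hX, hX]
      simp only [rootX, map_mul]
      rfl
    · rw [o2' t, o2' _, map_mul, map_mul, hY, hY, hY]
      simp only [rootY, map_mul, Units.val_inv_eq_inv_val, map_inv₀]
      rfl
  · exact absurd hJ (by simp [TwData.nOrb, twD4])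

theorem exists_ambF (σ : RingAut K) (hσ : ∀ (J : Fin twD4.nOrb) (t : K), t ∈ fld hq hK J → σ t ∈ fld hq hK J) :
    ∃ e : GL chevD4.Idx K ≃* GL chevD4.Idx K,
      (∀ r < chevD4.nroots, ∀ t : K, ∃ u, e ((glSys (rulesD4 K)).x r t) = (glSys (rulesD4 K)).x r u) ∧
      ∀ (J : Fin twD4.nOrb) (t : ↥(fld hq hK J)),
        e (elem hq hK false J t) = elem hq hK false J ⟨σ t, hσ J t t.2⟩ ∧
          e (elem hq hK true J t) = elem hq hK true J ⟨σ t, hσ J t t.2⟩ := by
  obtain ⟨e, he⟩ := exists_amb_field (rulesD4 K) σ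
  refine ⟨e, fun r _ t => ⟨_, he r t⟩, fun J t => ?_⟩
  have he' : ∀ r t, e (xGL chevD4 K r t) = xGL chevD4 K r (σ t) := he
  fin_cases J <;> constructor <;> simp [elem, wordsD4, map_mul, he', map_pow]

theorem aut_mem_fld (σ : RingAut K) (J : Fin twD4.nOrb) (t : K) (ht : t ∈ fld hq hK J) :
    σ t ∈ fld hq hK J :=
  mem_fld hq hK fun hJ => by rw [← map_pow, pow_eq_of_mem hq hK ht hJ]

/-- The parameters of ³D₄(q). -/
noncomputable def data : Data (grpD4 hq hK) where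
  fld := fld hq hK
  X := elem hq hK false
  Y := elem hq hK true
  pair J := by
    obtain ⟨len, hR⟩ := (rulesD4 K).root
    exact pair_elem hq hK hR J
  rangeX J g := range_elem hq hK false J g
  rangeY J g := range_elem hq hK true J g
  lin h hh J := by
    obtain ⟨len, hR⟩ := (rulesD4 K).root
    refine lin_of_P (rulesD4 K) hR ((orbD4 hq hK).posJ_closed hR J)
      (twD4_ok.enum_posJ (T := twistD4 hq hK) (fun _ => rfl) rfl J) (r := (twD4.posList J).head!) ?_
      (X := elem hq hK false J) (c := fun t : ↥(fld hq hK J) => coefD4 q (t : K)) (elem_P hq hK J)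
      (fun t => (t : K)) (fun t => ?_) hh
    · refine ((twD4_ok.enum_posJ (T := twistD4 hq hK) (fun _ => rfl) rfl J).2 _).1 ?_
      fin_cases J <;> simp [TwData.posList, twD4]
    · fin_cases J <;> simp [coefD4, TwData.posList, twD4]
  aut_mem := aut_mem_fld hq hK
  top := ⟨⟨1, by decide⟩, if_neg (by simp)⟩
  ambD c := by
    obtain ⟨len, hR⟩ := (rulesD4 K).root
    exact exists_ambD hq hK hR c
  ambF σ := exists_ambF hq hK σ (aut_mem_fld hq hK σ)

theorem fld_eq : (data hq hK).fld = fld hq hK := rfl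

theorem top_one : (data hq hK).fld ⟨1, by decide⟩ = ⊤ := by
  rw [fld_eq]
  exact if_neg (by simp)

include hR in
theorem link_zero (a : ↥(fld hq hK ⟨0, by decide⟩)) (ha : a ≠ 0) (hm : (a : K) ∈ fld hq hK ⟨1, by decide⟩) :
    RankOne.hOf (elem hq hK false ⟨0, by decide⟩) (elem hq hK true ⟨0, by decide⟩) a *
        elem hq hK false ⟨1, by decide⟩ 1 *
        (RankOne.hOf (elem hq hK false ⟨0, by decide⟩) (elem hq hK true ⟨0, by decide⟩) a)⁻¹ =
      elem hq hK false ⟨1, by decide⟩ (⟨(a : K), hm⟩)⁻¹ := by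
  obtain ⟨n14, n18, n13, n12, s0, s1, s2, s3⟩ := negD4
  obtain ⟨c0, c2, c3⟩ := cartan_link
  rw [s0] at c0
  rw [s2] at c2
  rw [s3] at c3
  obtain ⟨z1, z2⟩ := elem_zero hq hK
  have ha' : (a : K) ≠ 0 := fun h => ha (Subtype.ext h)
  have hq' : (a : K) ^ q = a := pow_eq_of_mem hq hK a.2 rfl
  have hc := (glSys (rulesD4 K)).conjP_hI (rulesD4 K) hR ⟨1, by decide⟩ (c := (a : K)) ha'
  have hinv : ((⟨(a : K), hm⟩⁻¹ : ↥(fld hq hK ⟨1, by decide⟩)) : K) = (a : K)⁻¹ := rfl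
  refine Subtype.ext ?_
  rw [Subgroup.coe_mul, Subgroup.coe_mul, Subgroup.coe_inv, RankOne.coe_hOf, z1, z2]
  unfold rootX rootY
  rw [RankOne.hOf_root, emb_zero, elem_P, elem_P, hinv]
  refine (conj_P _ hc (fun r hr => (orbD4 hq hK).posJ_lt r
    (((twD4_ok.enum_posJ (T := twistD4 hq hK) (fun _ => rfl) rfl _).2 r).1 hr)) _).trans ?_
  simp [Sys.P, TwData.posList, twD4, coefD4, hq', pow_two, pow_mul, c0, c2, c3]

include hR in
theorem hsync (β : MulAut ↥(grpD4 hq hK).Tw)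
    (e : ∀ J, ↥((data hq hK).fld J) ≃+* ↥((data hq hK).fld J))
    (he : ∀ J t, β ((data hq hK).X J t) = (data hq hK).X J (e J t) ∧
      β ((data hq hK).Y J t) = (data hq hK).Y J (e J t)) :
    ∃ σ : RingAut K, ∀ J t, e J t = (data hq hK).res σ J t := by
  obtain ⟨σ, hσ⟩ := exists_ringAut_of_top (data hq hK) (top_one hq hK) (e ⟨1, by decide⟩)
  refine ⟨σ, fun J t => ?_⟩
  fin_cases J
  · have hle : ∀ t ∈ (data hq hK).fld ⟨0, by decide⟩, t ∈ (data hq hK).fld ⟨1, by decide⟩ := fun t _ => by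
      rw [top_one]; trivial
    refine Subtype.ext ?_
    rw [← sync_link (data hq hK) he hle (fun a ha => ?_) t, hσ]
    · rfl
    exact link_zero hq hK hR a ha _
  · exact hσ t

theorem hperm (β : MulAut ↥(grpD4 hq hK).Tw) (π : Equiv.Perm (Fin twD4.nOrb))
    (hπ : ∀ J g, β g ∈ XP (grpD4 hq hK) (π J) ↔ g ∈ XP (grpD4 hq hK) J) : π = 1 := by
  refine Equiv.ext fun J => Fin.ext ?_
  have h := card_eq_of_perm (grpD4 hq hK) hπ J
  rw [card_fixD4, card_fixD4] at h
  have h1 := hq.one_lt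
  have hne : q ≠ q ^ 3 := (lt_self_pow₀ h1 (by norm_num)).ne
  have hlt : ∀ K : Fin twD4.nOrb, K.val < 2 := fun K => K.2
  have := hlt J
  have := hlt (π J)
  show (π J).val = J.val
  by_cases hJ : J.val = 0 <;> by_cases hπJ : (π J).val = 0
  · omega
  · rw [if_neg hπJ, if_pos hJ] at h; exact absurd h.symm hne
  · rw [if_pos hπJ, if_neg hJ] at h; exact absurd h hne
  · omega

theorem card_Tor : Nat.card (data hq hK).Tor = (q - 1) * (q ^ 3 - 1) := by
  have h : ∀ J : Fin twD4.nOrb, Nat.card (↥(fld hq hK J))ˣ = if J.val = 0 then q - 1 else q ^ 3 - 1 := by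
    intro J
    rw [Nat.card_units]
    split_ifs with hJ
    · rw [fld, if_pos hJ]
      refine congrArg (· - 1) (Eq.trans ?_ (card_fixed (K := K) hq.one_lt hK))
      exact Nat.card_congr (Equiv.subtypeEquivRight fun t => by rw [mem_fixField, frobD4_apply])
    · rw [fld, if_neg hJ, Nat.card_congr Subfield.topEquiv.toEquiv, Nat.card_eq_fintype_card, hK]
  show Nat.card (∀ J : Fin twD4.nOrb, (↥(fld hq hK J))ˣ) = _
  rw [Nat.card_pi]
  simp_rw [h]
  exact (Fin.prod_univ_two (f := fun J : Fin 2 => if J.val = 0 then q - 1 else q ^ 3 - 1)).trans (by simp)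

theorem card_out (p f : ℕ) [Fact p.Prime] [CharP K p] (hcard : Fintype.card K = p ^ (3 * f)) :
    Nat.card (Cfsg.Out ↥(grpD4 hq hK).Tw) = 3 * f := by
  obtain ⟨len, hR⟩ := (rulesD4 K).root
  have h0 := twD4_ok.isLongest (T := twistD4 hq hK) (fun _ => rfl) rfl
  have hν : ∀ J, (∀ r ∈ (orbD4 hq hK).negJ J,
      act chevD4 ((orbD4 hq hK).word twD4.longSeq) r ∈ (orbD4 hq hK).posJ J) ∧
      ∀ r ∈ (orbD4 hq hK).posJ J,
        act chevD4 ((orbD4 hq hK).word twD4.longSeq).reverse r ∈ (orbD4 hq hK).negJ J := fun J => by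
    have ep := twD4_ok.enum_posJ (T := twistD4 hq hK) (fun _ => rfl) rfl J
    have en := twD4_ok.enum_negJ (T := twistD4 hq hK) (fun _ => rfl) rfl hR J
    exact ⟨fun r hr => (ep.2 _).1 ((tableD4 J).2 r ((en.2 r).2 hr)),
      fun r hr => (en.2 _).1 ((tableD4 J).1 r ((ep.2 r).2 hr))⟩
  have h := (data hq hK).card_out_mul (rulesD4 K) hR h0 (fun a b h => h) hν
    (fun β π hπ => hperm hq hK β π fun J g => (hπ J g).1) (hsync hq hK hR)
  rw [card_HT (grpD4 hq hK) hR, show (grpD4 hq hK).Tw = twistedD4 K q from rfl, thm_S1106 hq hK,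
    card_Tor, Aut.card_ringAut (p := p) hcard] at h
  have e : (q - 1) * (q ^ 3 - 1) = (q - 1) ^ 2 * (q ^ 2 + q + 1) := by
    obtain ⟨k, rfl⟩ : ∃ k, q = k + 1 := ⟨q - 1, by have := hq.one_lt; omega⟩
    have e3 : (k + 1) ^ 3 - 1 = k * ((k + 1) ^ 2 + (k + 1) + 1) := by
      refine Nat.sub_eq_of_eq_add ?_
      ring
    rw [Nat.add_sub_cancel, e3]
    ring
  rw [e, mul_comm] at h
  refine Nat.eq_of_mul_eq_mul_left ?_ h
  have := hq.one_lt
  have : 0 < q - 1 := by omega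
  positivity

end

end Cfsg.Agent.KSG.TwAutD4
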