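import Cfsg.Agent.KSG.TwAutGL
import Cfsg.Agent.ChevTw.TwE6Diag
import Cfsg.Agent.ChevTw.TwE6Thms

/-!
# Outer automorphisms of ²E₆(q)
-/

set_option autoImplicit false

namespace Cfsg.Agent.KSG.TwAutE6

open Cfsg.Lie Cfsg.Agent.ChevGrp Cfsg.Agent.ChevTw Cfsg.Agent.KSG Cfsg.Agent.KSG.TwAut

theorem tableE6 :
    (∀ J : Fin twE6.nOrb, (∀ r ∈ twE6.posList J,
      act chevE6 (twE6.longSeq.flatMap (twE6.wJ chevE6)).reverse r ∈ (twE6.posList J).map chevE6.neg) ∧
      ∀ r ∈ (twE6.posList J).map chevE6.neg,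
        act chevE6 (twE6.longSeq.flatMap (twE6.wJ chevE6)) r ∈ twE6.posList J) := by
  decide +kernel

theorem cartan_link :
    chevE6.cartan 1 (chevE6.simple 3) = -1 ∧ chevE6.cartan 3 (chevE6.simple 2) = -1 ∧
      chevE6.cartan 3 (chevE6.simple 4) = -1 ∧ chevE6.cartan 2 (chevE6.simple 0) = -1 ∧
      chevE6.cartan 2 (chevE6.simple 5) = 0 ∧ chevE6.cartan 4 (chevE6.simple 0) = 0 ∧
      chevE6.cartan 4 (chevE6.simple 5) = -1 := by
  decide +kernel

/-- Non-adjacency of two orbits. -/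
def apart (J K : Fin twE6.nOrb) : Bool := decide (J.val + 1 ≠ K.val ∧ K.val + 1 ≠ J.val)

theorem words_table : ∀ J K : Fin twE6.nOrb, (apart J K = true ↔
    ∀ r < chevE6.nroots, act chevE6 (twE6.wJ chevE6 J ++ twE6.wJ chevE6 K) r =
      act chevE6 (twE6.wJ chevE6 K ++ twE6.wJ chevE6 J) r) := by
  decide +kernel

theorem perm_table : ∀ π : Equiv.Perm (Fin twE6.nOrb),
    (∀ J : Fin twE6.nOrb, (π J).val < 2 ↔ J.val < 2) →
    (∀ J K : Fin twE6.nOrb, (J.val + 1 ≠ K.val ∧ K.val + 1 ≠ J.val) →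
      (π J).val + 1 ≠ (π K).val ∧ (π K).val + 1 ≠ (π J).val) → π = 1 := by
  decide +kernel

section

variable {K : Type*} [Field K] [Fintype K] {q : ℕ} (hq : IsPrimePow q) (hK : Fintype.card K = q ^ 2)

/-- The parameter field of an orbit. -/
noncomputable def fld (J : Fin twE6.nOrb) : Subfield K :=
  if J.val < 2 then fixField (frobE6 hq hK) else ⊤

theorem pow_eq_of_mem {J : Fin twE6.nOrb} {t : K} (h : t ∈ fld hq hK J) (hJ : J.val < 2) : t ^ q = t := by
  rw [fld, if_pos hJ, mem_fixField, frobE6_apply] at h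
  exact h

theorem mem_fld {J : Fin twE6.nOrb} {t : K} (h : J.val < 2 → t ^ q = t) : t ∈ fld hq hK J := by
  rw [fld]
  split_ifs with hJ
  · rw [mem_fixField, frobE6_apply]
    exact h hJ
  · trivial

/-- The generating words. -/
def wordsE6 (q : ℕ) (t : K) : List (List (ℕ × K)) :=
  [[(46, t)], [(39, t)], [(42, t), (37, t ^ q)], [(56, t), (36, t ^ q)],
    [(25, t)], [(32, t)], [(29, t), (34, t ^ q)], [(15, t), (35, t ^ q)]]

/-- The element of a parameter. -/
noncomputable def elem (neg : Bool) (J : Fin twE6.nOrb) (t : ↥(fld hq hK J)) : ↥(grpE6 hq hK).Tw :=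
  ⟨(((wordsE6 q (t : K)).getD (bif neg then J.val + 4 else J.val) []).map
      fun p => xGL chevE6 K p.1 p.2).prod, by
    have h := (fixE6 hq hK J neg _).2 ⟨(t : K), pow_eq_of_mem hq hK t.2, rfl⟩
    cases neg
    · exact (grpE6 hq hK).fixPos_mem J h
    · exact (grpE6 hq hK).fixNeg_mem J h⟩

theorem range_elem (neg : Bool) (J : Fin twE6.nOrb) (g : ↥(grpE6 hq hK).Tw) :
    (g : GL chevE6.Idx K) ∈
        (glSys (rulesE6 K)).US (bif neg then (orbE6 hq hK).negJ J else (orbE6 hq hK).posJ J) ↔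
      ∃ t, elem hq hK neg J t = g := by
  constructor
  · intro h
    obtain ⟨t, ht, e⟩ := (fixE6 hq hK J neg g).1 ⟨h, (grpE6 hq hK).fixed g.2⟩
    exact ⟨⟨t, mem_fld hq hK ht⟩, Subtype.ext e.symm⟩
  · rintro ⟨t, rfl⟩
    exact ((fixE6 hq hK J neg _).2 ⟨(t : K), pow_eq_of_mem hq hK t.2, rfl⟩).1

/-- The coefficients of a word. -/
def coefE6 (q : ℕ) (t : K) : ℕ → K := fun r => if r = 37 ∨ r = 36 then t ^ q else t

theorem elem_P (J : Fin twE6.nOrb) (t : ↥(fld hq hK J)) :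
    (elem hq hK false J t : GL chevE6.Idx K) = (glSys (rulesE6 K)).P (twE6.posList J) (coefE6 q (t : K)) := by
  fin_cases J <;> simp [elem, wordsE6, Sys.P, TwData.posList, twE6, coefE6] <;> rfl

/-- The frobenius powers on a parameter field. -/
noncomputable def emb (k : ℕ) (J : Fin twE6.nOrb) : ↥(fld hq hK J) →+* K :=
  match k with
  | 0 => (fld hq hK J).subtype
  | k + 1 => (frobE6 hq hK).comp (emb k J)

theorem emb_zero (J : Fin twE6.nOrb) (t : ↥(fld hq hK J)) : emb hq hK 0 J t = (t : K) := rfl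

theorem emb_one (J : Fin twE6.nOrb) (t : ↥(fld hq hK J)) : emb hq hK 1 J t = (t : K) ^ q := by
  show frobE6 hq hK (t : K) = _
  rw [frobE6_apply]

/-- A fundamental root element with a twisted parameter. -/
noncomputable def rootX (i : Fin chevE6.rank) (k : ℕ) (J : Fin twE6.nOrb) (t : ↥(fld hq hK J)) :
    GL chevE6.Idx K :=
  (glSys (rulesE6 K)).x (chevE6.simple i) (emb hq hK k J t)

/-- The negative one. -/
noncomputable def rootY (i : Fin chevE6.rank) (k : ℕ) (J : Fin twE6.nOrb) (t : ↥(fld hq hK J)) :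
    GL chevE6.Idx K :=
  (glSys (rulesE6 K)).x (chevE6.neg (chevE6.simple i)) (emb hq hK k J t)

theorem comm2 {a b : Fin chevE6.rank}
    (hab : (chevE6.simple a, chevE6.simple b) ∈ [(42, 37), (56, 36)]) (k l : ℕ) (J : Fin twE6.nOrb) :
    RankOne.Comm2 (rootX hq hK a k J) (rootY hq hK a k J) (rootX hq hK b l J) (rootY hq hK b l J) := by
  intro t u
  have h : ∀ r ∈ [chevE6.simple a, chevE6.neg (chevE6.simple a)],
      ∀ s ∈ [chevE6.simple b, chevE6.neg (chevE6.simple b)], ∀ x y : K,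
        Commute ((glSys (rulesE6 K)).x r x) ((glSys (rulesE6 K)).x s y) := by
    intro r hr s hs x y
    obtain ⟨a1, a2, a3, a4, a5⟩ := commCrossE6 _ hab r hr s hs
    exact x_commute _ a4 a5 a1 a2 a3 x y
  exact ⟨h _ (by simp) _ (by simp) _ _, h _ (by simp) _ (by simp) _ _, h _ (by simp) _ (by simp) _ _,
    h _ (by simp) _ (by simp) _ _⟩

theorem elem_zero (t : ↥(fld hq hK ⟨0, by decide⟩)) :
    (elem hq hK false ⟨0, by decide⟩ t : GL chevE6.Idx K) = rootX hq hK ⟨1, by decide⟩ 0 ⟨0, by decide⟩ t ∧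
      (elem hq hK true ⟨0, by decide⟩ t : GL chevE6.Idx K) = rootY hq hK ⟨1, by decide⟩ 0 ⟨0, by decide⟩ t := by
  obtain ⟨n46, n39, n42, n37, n56, n36, s0, s1, s2, s3, s4, s5⟩ := negE6
  constructor <;> simp [elem, wordsE6, rootX, rootY, emb_zero, s1, n46, glSys]

theorem elem_one (t : ↥(fld hq hK ⟨1, by decide⟩)) :
    (elem hq hK false ⟨1, by decide⟩ t : GL chevE6.Idx K) = rootX hq hK ⟨3, by decide⟩ 0 ⟨1, by decide⟩ t ∧
      (elem hq hK true ⟨1, by decide⟩ t : GL chevE6.Idx K) = rootY hq hK ⟨3, by decide⟩ 0 ⟨1, by decide⟩ t := by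
  obtain ⟨n46, n39, n42, n37, n56, n36, s0, s1, s2, s3, s4, s5⟩ := negE6
  constructor <;> simp [elem, wordsE6, rootX, rootY, emb_zero, s3, n39, glSys]

theorem elem_two (t : ↥(fld hq hK ⟨2, by decide⟩)) :
    (elem hq hK false ⟨2, by decide⟩ t : GL chevE6.Idx K) =
        rootX hq hK ⟨2, by decide⟩ 0 ⟨2, by decide⟩ t * rootX hq hK ⟨4, by decide⟩ 1 ⟨2, by decide⟩ t ∧
      (elem hq hK true ⟨2, by decide⟩ t : GL chevE6.Idx K) =
        rootY hq hK ⟨2, by decide⟩ 0 ⟨2, by decide⟩ t * rootY hq hK ⟨4, by decide⟩ 1 ⟨2, by decide⟩ t := by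
  obtain ⟨n46, n39, n42, n37, n56, n36, s0, s1, s2, s3, s4, s5⟩ := negE6
  constructor <;> simp [elem, wordsE6, rootX, rootY, emb_zero, emb_one, s2, s4, n42, n37, glSys]

theorem elem_three (t : ↥(fld hq hK ⟨3, by decide⟩)) :
    (elem hq hK false ⟨3, by decide⟩ t : GL chevE6.Idx K) =
        rootX hq hK ⟨0, by decide⟩ 0 ⟨3, by decide⟩ t * rootX hq hK ⟨5, by decide⟩ 1 ⟨3, by decide⟩ t ∧
      (elem hq hK true ⟨3, by decide⟩ t : GL chevE6.Idx K) =
        rootY hq hK ⟨0, by decide⟩ 0 ⟨3, by decide⟩ t * rootY hq hK ⟨5, by decide⟩ 1 ⟨3, by decide⟩ t := by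
  obtain ⟨n46, n39, n42, n37, n56, n36, s0, s1, s2, s3, s4, s5⟩ := negE6
  constructor <;> simp [elem, wordsE6, rootX, rootY, emb_zero, emb_one, s0, s5, n56, n36, glSys]

variable {len : ℕ → ℕ} (hR : RootTable chevE6 len)

include hR in
theorem preP_root (i : Fin chevE6.rank) (k : ℕ) (J : Fin twE6.nOrb) :
    RankOne.PreP (rootX hq hK i k J) (rootY hq hK i k J) :=
  RankOne.PreP.root (glSys (rulesE6 K)) (rulesE6 K) hR i (emb hq hK k J)

include hR in
theorem elem_eq_zero (J : Fin twE6.nOrb) (t : ↥(fld hq hK J))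
    (h : (elem hq hK false J t : GL chevE6.Idx K) = 1) : t = 0 := by
  have ep := twE6_ok.enum_posJ (T := twistE6 hq hK) (fun _ => rfl) rfl J
  have h0 : (glSys (rulesE6 K)).P (twE6.posList J) (fun _ => (0 : K)) = 1 :=
    (glSys (rulesE6 K)).P_zero (fun r hr => (orbE6 hq hK).posJ_lt r ((ep.2 r).1 hr)) fun _ _ => rfl
  rw [elem_P, ← h0] at h
  have hmem : (twE6.posList J).head! ∈ (orbE6 hq hK).posJ J := by
    refine (ep.2 _).1 ?_
    fin_cases J <;> simp [TwData.posList, twE6]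
  have e := (glSys (rulesE6 K)).coef_unique hR ((orbE6 hq hK).posJ_closed hR J) ep (congrArg _ h) _ hmem
  refine Subtype.ext ?_
  fin_cases J <;> simpa [coefE6, TwData.posList, twE6] using e

include hR in
theorem pair_elem (J : Fin twE6.nOrb) : RankOne.Pair (elem hq hK false J) (elem hq hK true J) := by
  refine RankOne.PreP.pair ?_ (elem_eq_zero hq hK hR J) (fun a b e => ?_)
  · obtain ⟨n46, n39, n42, n37, n56, n36, s0, s1, s2, s3, s4, s5⟩ := negE6
    rcases J with ⟨_ | _ | _ | _ | j, hJ⟩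
    · rw [funext fun t => (elem_zero hq hK t).1, funext fun t => (elem_zero hq hK t).2]
      exact preP_root hq hK hR _ _ _
    · rw [funext fun t => (elem_one hq hK t).1, funext fun t => (elem_one hq hK t).2]
      exact preP_root hq hK hR _ _ _
    · rw [funext fun t => (elem_two hq hK t).1, funext fun t => (elem_two hq hK t).2]
      exact (preP_root hq hK hR _ _ _).mul (preP_root hq hK hR _ _ _)
        (comm2 hq hK (by rw [s2, s4]; simp) _ _ _)
    · rw [funext fun t => (elem_three hq hK t).1, funext fun t => (elem_three hq hK t).2]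
      exact (preP_root hq hK hR _ _ _).mul (preP_root hq hK hR _ _ _)
        (comm2 hq hK (by rw [s0, s5]; simp) _ _ _)
    · exact absurd hJ (by simp [TwData.nOrb, twE6])
  · exact eq_one_of_pos_neg (rulesE6 K) hR J J ((range_elem hq hK false J _).2 ⟨a, rfl⟩)
      (e ▸ (range_elem hq hK true J _).2 ⟨b, rfl⟩)

include hR in
theorem exists_ambD (c : ∀ J, (↥(fld hq hK J))ˣ) :
    ∃ e : GL chevE6.Idx K ≃* GL chevE6.Idx K,
      (∀ r < chevE6.nroots, ∀ t : K, ∃ u, e ((glSys (rulesE6 K)).x r t) = (glSys (rulesE6 K)).x r u) ∧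
      ∀ J t, e (elem hq hK false J t) = elem hq hK false J ((c J : ↥(fld hq hK J)) * t) ∧
        e (elem hq hK true J t) = elem hq hK true J (((c J)⁻¹ : (↥(fld hq hK J))ˣ) * t) := by
  have ne : ∀ J (k : ℕ), emb hq hK k J (c J : ↥(fld hq hK J)) ≠ 0 := fun J k =>
    (map_ne_zero _).2 (c J).ne_zero
  set u : Fin chevE6.rank → Kˣ := mkE6 (Units.mk0 _ (ne ⟨3, by decide⟩ 0)) (Units.mk0 _ (ne ⟨0, by decide⟩ 0))
    (Units.mk0 _ (ne ⟨2, by decide⟩ 0)) (Units.mk0 _ (ne ⟨1, by decide⟩ 0))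
    (Units.mk0 _ (ne ⟨2, by decide⟩ 1)) (Units.mk0 _ (ne ⟨3, by decide⟩ 1)) with hu
  obtain ⟨e, he0, he⟩ := exists_amb_diag (rulesE6 K) hR (Aut.chainEdgeOK_of_mem (by simp))
    (chainStepOK_of_mem (by simp)) u
  refine ⟨e, he0, fun J t => ?_⟩
  have hX := fun (i : Fin chevE6.rank) (k : ℕ) (J : Fin twE6.nOrb) (s : ↥(fld hq hK J)) =>
    (show e (rootX hq hK i k J s) =
      (glSys (rulesE6 K)).x (chevE6.simple i) ((u i : K) * emb hq hK k J s) from (he i _).1)
  have hY := fun (i : Fin chevE6.rank) (k : ℕ) (J : Fin twE6.nOrb) (s : ↥(fld hq hK J)) =>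
    (show e (rootY hq hK i k J s) =
      (glSys (rulesE6 K)).x (chevE6.neg (chevE6.simple i)) ((u i : K)⁻¹ * emb hq hK k J s) from (he i _).2)
  rcases J with ⟨_ | _ | _ | _ | j, hJ⟩
  · refine ⟨?_, ?_⟩
    · rw [(elem_zero hq hK t).1, (elem_zero hq hK _).1, hX, rootX, map_mul]
      rfl
    · rw [(elem_zero hq hK t).2, (elem_zero hq hK _).2, hY, rootY, map_mul, Units.val_inv_eq_inv_val, map_inv₀]
      rfl
  · refine ⟨?_, ?_⟩
    · rw [(elem_one hq hK t).1, (elem_one hq hK _).1, hX, rootX, map_mul]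
      rfl
    · rw [(elem_one hq hK t).2, (elem_one hq hK _).2, hY, rootY, map_mul, Units.val_inv_eq_inv_val, map_inv₀]
      rfl
  · refine ⟨?_, ?_⟩
    · rw [(elem_two hq hK t).1, (elem_two hq hK _).1, map_mul, hX, hX]
      simp only [rootX, map_mul]
      rfl
    · rw [(elem_two hq hK t).2, (elem_two hq hK _).2, map_mul, hY, hY]
      simp only [rootY, map_mul, Units.val_inv_eq_inv_val, map_inv₀]
      rfl
  · refine ⟨?_, ?_⟩
    · rw [(elem_three hq hK t).1, (elem_three hq hK _).1, map_mul, hX, hX]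
      simp only [rootX, map_mul]
      rfl
    · rw [(elem_three hq hK t).2, (elem_three hq hK _).2, map_mul, hY, hY]
      simp only [rootY, map_mul, Units.val_inv_eq_inv_val, map_inv₀]
      rfl
  · exact absurd hJ (by simp [TwData.nOrb, twE6])

theorem exists_ambF (σ : RingAut K) (hσ : ∀ (J : Fin twE6.nOrb) (t : K), t ∈ fld hq hK J → σ t ∈ fld hq hK J) :
    ∃ e : GL chevE6.Idx K ≃* GL chevE6.Idx K,
      (∀ r < chevE6.nroots, ∀ t : K, ∃ u, e ((glSys (rulesE6 K)).x r t) = (glSys (rulesE6 K)).x r u) ∧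
      ∀ (J : Fin twE6.nOrb) (t : ↥(fld hq hK J)),
        e (elem hq hK false J t) = elem hq hK false J ⟨σ t, hσ J t t.2⟩ ∧
          e (elem hq hK true J t) = elem hq hK true J ⟨σ t, hσ J t t.2⟩ := by
  obtain ⟨e, he⟩ := exists_amb_field (rulesE6 K) σ
  refine ⟨e, fun r _ t => ⟨_, he r t⟩, fun J t => ?_⟩
  have he' : ∀ r t, e (xGL chevE6 K r t) = xGL chevE6 K r (σ t) := he
  fin_cases J <;> constructor <;> simp [elem, wordsE6, map_mul, he', map_pow]

theorem aut_mem_fld (σ : RingAut K) (J : Fin twE6.nOrb) (t : K) (ht : t ∈ fld hq hK J) :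
    σ t ∈ fld hq hK J :=
  mem_fld hq hK fun hJ => by rw [← map_pow, pow_eq_of_mem hq hK ht hJ]

/-- The parameters of ²E₆(q). -/
noncomputable def data : Data (grpE6 hq hK) where
  fld := fld hq hK
  X := elem hq hK false
  Y := elem hq hK true
  pair J := by
    obtain ⟨len, hR⟩ := (rulesE6 K).root
    exact pair_elem hq hK hR J
  rangeX J g := range_elem hq hK false J g
  rangeY J g := range_elem hq hK true J g
  lin h hh J := by
    obtain ⟨len, hR⟩ := (rulesE6 K).root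
    refine lin_of_P (rulesE6 K) hR ((orbE6 hq hK).posJ_closed hR J)
      (twE6_ok.enum_posJ (T := twistE6 hq hK) (fun _ => rfl) rfl J) (r := (twE6.posList J).head!) ?_
      (X := elem hq hK false J) (c := fun t : ↥(fld hq hK J) => coefE6 q (t : K)) (elem_P hq hK J)
      (fun t => (t : K)) (fun t => ?_) hh
    · refine ((twE6_ok.enum_posJ (T := twistE6 hq hK) (fun _ => rfl) rfl J).2 _).1 ?_
      fin_cases J <;> simp [TwData.posList, twE6]
    · fin_cases J <;> simp [coefE6, TwData.posList, twE6]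
  aut_mem := aut_mem_fld hq hK
  top := ⟨⟨3, by decide⟩, if_neg (by simp)⟩
  ambD c := by
    obtain ⟨len, hR⟩ := (rulesE6 K).root
    exact exists_ambD hq hK hR c
  ambF σ := exists_ambF hq hK σ (aut_mem_fld hq hK σ)

theorem fld_eq : (data hq hK).fld = fld hq hK := rfl

theorem top_of_le {J : Fin twE6.nOrb} (hJ : 2 ≤ J.val) : (data hq hK).fld J = ⊤ := by
  rw [fld_eq]
  exact if_neg (by omega)

include hR in
theorem link_zero (a : ↥(fld hq hK ⟨0, by decide⟩)) (ha : a ≠ 0) (hm : (a : K) ∈ fld hq hK ⟨1, by decide⟩) :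
    RankOne.hOf (elem hq hK false ⟨0, by decide⟩) (elem hq hK true ⟨0, by decide⟩) a *
        elem hq hK false ⟨1, by decide⟩ 1 *
        (RankOne.hOf (elem hq hK false ⟨0, by decide⟩) (elem hq hK true ⟨0, by decide⟩) a)⁻¹ =
      elem hq hK false ⟨1, by decide⟩ (⟨(a : K), hm⟩)⁻¹ := by
  obtain ⟨n46, n39, n42, n37, n56, n36, s0, s1, s2, s3, s4, s5⟩ := negE6
  obtain ⟨c13, c32, c34, c20, c25, c40, c45⟩ := cartan_link
  rw [s3] at c13
  have ha' : (a : K) ≠ 0 := fun h => ha (Subtype.ext h)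
  have hc := (glSys (rulesE6 K)).conjP_hI (rulesE6 K) hR ⟨1, by decide⟩ (c := (a : K)) ha'
  have hinv : ((⟨(a : K), hm⟩⁻¹ : ↥(fld hq hK ⟨1, by decide⟩)) : K) = (a : K)⁻¹ := rfl
  refine Subtype.ext ?_
  rw [Subgroup.coe_mul, Subgroup.coe_mul, Subgroup.coe_inv, RankOne.coe_hOf,
    funext fun t => (elem_zero hq hK t).1, funext fun t => (elem_zero hq hK t).2]
  unfold rootX rootY
  rw [RankOne.hOf_root, emb_zero, elem_P, elem_P, hinv]
  refine (conj_P _ hc (fun r hr => (orbE6 hq hK).posJ_lt r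
    (((twE6_ok.enum_posJ (T := twistE6 hq hK) (fun _ => rfl) rfl _).2 r).1 hr)) _).trans ?_
  simp [Sys.P, TwData.posList, twE6, coefE6, c13]

include hR in
theorem link_one (a : ↥(fld hq hK ⟨1, by decide⟩)) (ha : a ≠ 0) (hm : (a : K) ∈ fld hq hK ⟨2, by decide⟩) :
    RankOne.hOf (elem hq hK false ⟨1, by decide⟩) (elem hq hK true ⟨1, by decide⟩) a *
        elem hq hK false ⟨2, by decide⟩ 1 *
        (RankOne.hOf (elem hq hK false ⟨1, by decide⟩) (elem hq hK true ⟨1, by decide⟩) a)⁻¹ =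
      elem hq hK false ⟨2, by decide⟩ (⟨(a : K), hm⟩)⁻¹ := by
  obtain ⟨n46, n39, n42, n37, n56, n36, s0, s1, s2, s3, s4, s5⟩ := negE6
  obtain ⟨c13, c32, c34, c20, c25, c40, c45⟩ := cartan_link
  rw [s2] at c32
  rw [s4] at c34
  have ha' : (a : K) ≠ 0 := fun h => ha (Subtype.ext h)
  have hq' : (a : K) ^ q = a := pow_eq_of_mem hq hK a.2 (by decide)
  have hc := (glSys (rulesE6 K)).conjP_hI (rulesE6 K) hR ⟨3, by decide⟩ (c := (a : K)) ha'
  have hinv : ((⟨(a : K), hm⟩⁻¹ : ↥(fld hq hK ⟨2, by decide⟩)) : K) = (a : K)⁻¹ := rfl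
  refine Subtype.ext ?_
  rw [Subgroup.coe_mul, Subgroup.coe_mul, Subgroup.coe_inv, RankOne.coe_hOf,
    funext fun t => (elem_one hq hK t).1, funext fun t => (elem_one hq hK t).2]
  unfold rootX rootY
  rw [RankOne.hOf_root, emb_zero, elem_P, elem_P, hinv]
  refine (conj_P _ hc (fun r hr => (orbE6 hq hK).posJ_lt r
    (((twE6_ok.enum_posJ (T := twistE6 hq hK) (fun _ => rfl) rfl _).2 r).1 hr)) _).trans ?_
  simp [Sys.P, TwData.posList, twE6, coefE6, hq', c32, c34]

include hR in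
theorem link_two (a : ↥(fld hq hK ⟨2, by decide⟩)) (ha : a ≠ 0) (hm : (a : K) ∈ fld hq hK ⟨3, by decide⟩) :
    RankOne.hOf (elem hq hK false ⟨2, by decide⟩) (elem hq hK true ⟨2, by decide⟩) a *
        elem hq hK false ⟨3, by decide⟩ 1 *
        (RankOne.hOf (elem hq hK false ⟨2, by decide⟩) (elem hq hK true ⟨2, by decide⟩) a)⁻¹ =
      elem hq hK false ⟨3, by decide⟩ (⟨(a : K), hm⟩)⁻¹ := by
  obtain ⟨n46, n39, n42, n37, n56, n36, s0, s1, s2, s3, s4, s5⟩ := negE6
  obtain ⟨c13, c32, c34, c20, c25, c40, c45⟩ := cartan_link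
  have hcomm := comm2 hq hK (a := ⟨2, by decide⟩) (b := ⟨4, by decide⟩) (by rw [s2, s4]; simp) 0 1 ⟨2, by decide⟩
  rw [s0] at c20 c40
  rw [s5] at c25 c45
  have ha' : (a : K) ≠ 0 := fun h => ha (Subtype.ext h)
  have hb' : (a : K) ^ q ≠ 0 := pow_ne_zero q ha'
  have hc := (glSys (rulesE6 K)).conjP_hI (rulesE6 K) hR ⟨2, by decide⟩ (c := (a : K)) ha'
  have hd := (glSys (rulesE6 K)).conjP_hI (rulesE6 K) hR ⟨4, by decide⟩ (c := (a : K) ^ q) hb'
  have hinv : ((⟨(a : K), hm⟩⁻¹ : ↥(fld hq hK ⟨3, by decide⟩)) : K) = (a : K)⁻¹ := rfl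
  have hl : ∀ r ∈ twE6.posList ⟨3, by decide⟩, r < chevE6.nroots := fun r hr => (orbE6 hq hK).posJ_lt r
    (((twE6_ok.enum_posJ (T := twistE6 hq hK) (fun _ => rfl) rfl _).2 r).1 hr)
  refine Subtype.ext ?_
  rw [Subgroup.coe_mul, Subgroup.coe_mul, Subgroup.coe_inv, RankOne.coe_hOf,
    funext fun t => (elem_two hq hK t).1, funext fun t => (elem_two hq hK t).2, RankOne.hOf_mul hcomm]
  unfold rootX rootY
  rw [RankOne.hOf_root, RankOne.hOf_root, emb_zero, emb_one, elem_P, elem_P, hinv]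
  rw [show ∀ A B X : GL chevE6.Idx K, A * B * X * (A * B)⁻¹ = A * (B * X * B⁻¹) * A⁻¹ from
    fun A B X => by group]
  rw [conj_P _ hd hl, conj_P _ hc hl]
  simp [Sys.P, TwData.posList, twE6, coefE6, c20, c25, c40, c45, inv_pow]

include hR in
theorem hsync (β : MulAut ↥(grpE6 hq hK).Tw)
    (e : ∀ J, ↥((data hq hK).fld J) ≃+* ↥((data hq hK).fld J))
    (he : ∀ J t, β ((data hq hK).X J t) = (data hq hK).X J (e J t) ∧
      β ((data hq hK).Y J t) = (data hq hK).Y J (e J t)) :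
    ∃ σ : RingAut K, ∀ J t, e J t = (data hq hK).res σ J t := by
  obtain ⟨σ, hσ⟩ := exists_ringAut_of_top (data hq hK) (top_of_le hq hK (J := ⟨3, by decide⟩) (by decide))
    (e ⟨3, by decide⟩)
  have le12 : ∀ t ∈ (data hq hK).fld ⟨1, by decide⟩, t ∈ (data hq hK).fld ⟨2, by decide⟩ := fun t _ => by
    rw [top_of_le hq hK (J := ⟨2, by decide⟩) (by decide)]; trivial
  have le23 : ∀ t ∈ (data hq hK).fld ⟨2, by decide⟩, t ∈ (data hq hK).fld ⟨3, by decide⟩ := fun t _ => by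
    rw [top_of_le hq hK (J := ⟨3, by decide⟩) (by decide)]; trivial
  have le01 : ∀ t ∈ (data hq hK).fld ⟨0, by decide⟩, t ∈ (data hq hK).fld ⟨1, by decide⟩ := fun t ht => ht
  have e2 : ∀ t, e ⟨2, by decide⟩ t = (data hq hK).res σ ⟨2, by decide⟩ t := fun t => by
    refine Subtype.ext ?_
    rw [← sync_link (data hq hK) he le23 (fun a ha => link_two hq hK hR a ha _) t, hσ]
    rfl
  have e1 : ∀ t, e ⟨1, by decide⟩ t = (data hq hK).res σ ⟨1, by decide⟩ t := fun t => by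
    refine Subtype.ext ?_
    rw [← sync_link (data hq hK) he le12 (fun a ha => link_one hq hK hR a ha _) t, e2]
    rfl
  have e0 : ∀ t, e ⟨0, by decide⟩ t = (data hq hK).res σ ⟨0, by decide⟩ t := fun t => by
    refine Subtype.ext ?_
    rw [← sync_link (data hq hK) he le01 (fun a ha => link_zero hq hK hR a ha _) t, e1]
    rfl
  refine ⟨σ, fun J => ?_⟩
  rcases J with ⟨_ | _ | _ | _ | j, hJ⟩
  · exact e0
  · exact e1
  · exact e2
  · exact hσ
  · exact absurd hJ (by simp [TwData.nOrb, twE6])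

include hR in
theorem hperm (β : MulAut ↥(grpE6 hq hK).Tw) (π : Equiv.Perm (Fin twE6.nOrb))
    (hX : ∀ J g, β g ∈ XP (grpE6 hq hK) (π J) ↔ g ∈ XP (grpE6 hq hK) J)
    (hP : ∀ J g, β g ∈ PT (grpE6 hq hK) (rulesE6 K) hR
        (twE6_ok.isLongest (T := twistE6 hq hK) (fun _ => rfl) rfl) (π J) ↔
      g ∈ PT (grpE6 hq hK) (rulesE6 K) hR (twE6_ok.isLongest (T := twistE6 hq hK) (fun _ => rfl) rfl) J) :
    π = 1 := by
  have hne : q ≠ q ^ 2 := (lt_self_pow₀ hq.one_lt (by norm_num)).ne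
  refine perm_table π (fun J => ?_) fun J J' h => ?_
  · have h := card_eq_of_perm (grpE6 hq hK) hX J
    rw [card_fixE6, card_fixE6] at h
    constructor <;> intro h1 <;> by_contra h2
    · rw [if_pos h1, if_neg h2] at h; exact hne h
    · rw [if_neg h2, if_pos h1] at h; exact hne h.symm
  · have h1 : apart J J' = true := by simpa [apart] using h
    have h2 := perm_wordsComm (grpE6 hq hK) (rulesE6 K) hR
      (twE6_ok.isLongest (T := twistE6 hq hK) (fun _ => rfl) rfl) hP ((words_table J J').1 h1)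
    simpa [apart] using (words_table (π J) (π J')).2 h2

theorem card_Tor : Nat.card (data hq hK).Tor = (q - 1) ^ 2 * (q ^ 2 - 1) ^ 2 := by
  have h : ∀ J : Fin twE6.nOrb, Nat.card (↥(fld hq hK J))ˣ = if J.val < 2 then q - 1 else q ^ 2 - 1 := by
    intro J
    rw [Nat.card_units]
    split_ifs with hJ
    · rw [fld, if_pos hJ]
      refine congrArg (· - 1) (Eq.trans ?_ (card_fixed (K := K) hq.one_lt hK))
      exact Nat.card_congr (Equiv.subtypeEquivRight fun t => by rw [mem_fixField, frobE6_apply])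
    · rw [fld, if_neg hJ, Nat.card_congr Subfield.topEquiv.toEquiv, Nat.card_eq_fintype_card, hK]
  show Nat.card (∀ J : Fin twE6.nOrb, (↥(fld hq hK J))ˣ) = _
  rw [Nat.card_pi]
  simp_rw [h]
  exact (Fin.prod_univ_four (f := fun J : Fin 4 => if J.val < 2 then q - 1 else q ^ 2 - 1)).trans
    (by simp [pow_two, mul_assoc])

theorem card_out (p f : ℕ) [Fact p.Prime] [CharP K p] (hcard : Fintype.card K = p ^ (2 * f)) :
    Nat.card (Cfsg.Out ↥(grpE6 hq hK).Tw) = 2 * Nat.gcd 3 (q + 1) * f := by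
  obtain ⟨len, hR⟩ := (rulesE6 K).root
  have h0 := twE6_ok.isLongest (T := twistE6 hq hK) (fun _ => rfl) rfl
  have hν : ∀ J, (∀ r ∈ (orbE6 hq hK).negJ J,
      act chevE6 ((orbE6 hq hK).word twE6.longSeq) r ∈ (orbE6 hq hK).posJ J) ∧
      ∀ r ∈ (orbE6 hq hK).posJ J,
        act chevE6 ((orbE6 hq hK).word twE6.longSeq).reverse r ∈ (orbE6 hq hK).negJ J := fun J => by
    have ep := twE6_ok.enum_posJ (T := twistE6 hq hK) (fun _ => rfl) rfl J
    have en := twE6_ok.enum_negJ (T := twistE6 hq hK) (fun _ => rfl) rfl hR J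
    exact ⟨fun r hr => (ep.2 _).1 ((tableE6 J).2 r ((en.2 r).2 hr)),
      fun r hr => (en.2 _).1 ((tableE6 J).1 r ((ep.2 r).2 hr))⟩
  have h := (data hq hK).card_out_mul (rulesE6 K) hR h0 (fun a b h => h) hν
    (fun β π hπ => hperm hq hK hR β π (fun J g => (hπ J g).1) fun J g => (hπ J g).2.2)
    (hsync hq hK hR)
  rw [card_HT (grpE6 hq hK) hR, show (grpE6 hq hK).Tw = twistedE6 K q from rfl, card_Tor,
    Aut.card_ringAut (p := p) hcard] at h
  have hd := thm_S1102 hq hK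
  set N := Nat.card ↥(chevE6.diagonalSubgroup K ⊓ twistedE6 K q : Subgroup (GL chevE6.Idx K))
  have hN : 0 < N := Nat.card_pos
  have e : (q - 1) ^ 2 * (q ^ 2 - 1) ^ 2 = (q - 1) ^ 4 * (q + 1) ^ 2 := by
    rw [show q ^ 2 - 1 = (q + 1) * (q - 1) by simpa using Nat.sq_sub_sq q 1]
    ring
  rw [e, ← hd] at h
  refine Nat.eq_of_mul_eq_mul_right hN (h.trans ?_)
  ring

end

end Cfsg.Agent.KSG.TwAutE6
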