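import Cfsg.Agent.KSG.TwAutRee
import Cfsg.Agent.ChevTw.TwF4Thms

/-!
# Outer automorphisms of ²F₄(q)
-/

set_option autoImplicit false

namespace Cfsg.Agent.KSG.TwAutF4

open Cfsg.Lie Cfsg.Agent.ChevGrp Cfsg.Agent.ChevTw Cfsg.Agent.KSG Cfsg.Agent.KSG.TwAut

theorem tableF4 : (∀ J : Fin twF4.nOrb, (∀ r ∈ twF4.posList J,
      act chevF4 (twF4.longSeq.flatMap (twF4.wJ chevF4)).reverse r ∈ (twF4.posList J).map chevF4.neg) ∧
      ∀ r ∈ (twF4.posList J).map chevF4.neg,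
        act chevF4 (twF4.longSeq.flatMap (twF4.wJ chevF4)) r ∈ twF4.posList J) := by
  decide +kernel

theorem rootsF4 : chevF4.simple 0 = 33 ∧ chevF4.simple 1 = 27 ∧ chevF4.simple 2 = 25 ∧
    chevF4.simple 3 = 24 ∧ chevF4.neg 33 = 14 ∧ chevF4.neg 24 = 23 ∧
    chevF4.cartan 0 25 = 0 ∧ chevF4.cartan 3 25 = -1 ∧
    chevF4.cartan 0 27 = -1 ∧ chevF4.cartan 3 27 = 0 := by
  decide +kernel

theorem commHigh : ∀ ab ∈ [(28, 25), (30, 27), (30, 25), (28, 30)],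
    ab.1 < chevF4.nroots ∧ ab.2 < chevF4.nroots ∧ ab.2 ≠ ab.1 ∧ ab.2 ≠ chevF4.neg ab.1 ∧
      chevF4.commTerms ab.1 ab.2 = [] := by
  decide +kernel

section

variable {K : Type*} [Field K]

theorem x_high {a b : ℕ} (h : (a, b) ∈ [(28, 25), (30, 27), (30, 25), (28, 30)]) (t u : K) :
    Commute (xGL chevF4 K a t) (xGL chevF4 K b u) := by
  obtain ⟨h1, h2, h3, h4, h5⟩ := commHigh (a, b) h
  exact x_commute (glSys (rulesF4 K)) h1 h2 h3 h4 h5 t u

theorem commA : 28 < chevF4.nroots ∧ 27 < chevF4.nroots ∧ (27 : ℕ) ≠ 28 ∧ 27 ≠ chevF4.neg 28 ∧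
    chevF4.commTerms 28 27 = [(30, -2, 1, 1)] ∧ 30 < chevF4.nroots := by
  decide +kernel

theorem x_high_a [CharP K 2] (t u : K) : Commute (xGL chevF4 K 28 t) (xGL chevF4 K 27 u) := by
  obtain ⟨l1, l2, n1, n2, e1, l3⟩ := commA
  have e := (glSys (rulesF4 K)).comm 28 l1 27 l2 n1 n2 t u
  have h2 : (2 : K) = 0 := CharTwo.two_eq_zero
  simp [ChevalleyDatum.commWord, e1, h2, (glSys (rulesF4 K)).x_zero l3] at e
  exact e.symm

theorem x_add' {r : ℕ} (hr : r < chevF4.nroots) (s t : K) :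
    (glSys (rulesF4 K)).x r s * (glSys (rulesF4 K)).x r t = (glSys (rulesF4 K)).x r (s + t) :=
  (glSys (rulesF4 K)).x_add r hr s t

theorem x_add'' {r : ℕ} (hr : r < chevF4.nroots) (s t : K) :
    xGL chevF4 K r s * xGL chevF4 K r t = xGL chevF4 K r (s + t) := by
  simpa [glSys] using x_add' hr s t

theorem high_mul (c d c' d' : K) :
    xGL chevF4 K 28 c * xGL chevF4 K 30 d * (xGL chevF4 K 28 c' * xGL chevF4 K 30 d') =
      xGL chevF4 K 28 (c + c') * xGL chevF4 K 30 (d + d') := by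
  rw [← x_add'' (by decide +kernel), ← x_add'' (by decide +kernel)]
  have := (x_high (a := 28) (b := 30) (by simp) c' d).eq
  simp only [mul_assoc]
  rw [← mul_assoc (xGL chevF4 K 30 d), ← this, mul_assoc]

theorem word_mul [CharP K 2] (a b c d a' b' c' d' : K) :
    xGL chevF4 K 27 a * xGL chevF4 K 25 b * (xGL chevF4 K 28 c * xGL chevF4 K 30 d) *
        (xGL chevF4 K 27 a' * xGL chevF4 K 25 b' * (xGL chevF4 K 28 c' * xGL chevF4 K 30 d')) =
      xGL chevF4 K 27 (a + a') * xGL chevF4 K 25 (b + b') *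
        (xGL chevF4 K 28 (a' * b + c + c') * xGL chevF4 K 30 (a' ^ 2 * b + d + d')) := by
  have hP : ∀ c d, Commute (xGL chevF4 K 28 c * xGL chevF4 K 30 d) (xGL chevF4 K 27 a' * xGL chevF4 K 25 b') :=
    fun c d => ((x_high_a c a').mul_left (x_high (by simp) d a')).mul_right
      ((x_high (by simp) c b').mul_left (x_high (by simp) d b'))
  have hQ : ∀ c d, Commute (xGL chevF4 K 28 c * xGL chevF4 K 30 d) (xGL chevF4 K 25 b') :=
    fun c d => (x_high (by simp) c b').mul_left (x_high (by simp) d b')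
  have e : xGL chevF4 K 25 b * xGL chevF4 K 27 a' = xGL chevF4 K 27 a' * xGL chevF4 K 25 b *
      (xGL chevF4 K 28 (a' * b) * xGL chevF4 K 30 (a' ^ 2 * b)) :=
    x_commF4 (a := 27) (b := 25) (c := 28) (d := 30) (by simp) a' b
  calc _ = xGL chevF4 K 27 a * xGL chevF4 K 25 b *
        ((xGL chevF4 K 28 c * xGL chevF4 K 30 d) * (xGL chevF4 K 27 a' * xGL chevF4 K 25 b')) *
        (xGL chevF4 K 28 c' * xGL chevF4 K 30 d') := by group
    _ = xGL chevF4 K 27 a * (xGL chevF4 K 25 b * xGL chevF4 K 27 a') * xGL chevF4 K 25 b' *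
        ((xGL chevF4 K 28 c * xGL chevF4 K 30 d) * (xGL chevF4 K 28 c' * xGL chevF4 K 30 d')) := by
      rw [(hP c d).eq]
      group
    _ = xGL chevF4 K 27 a * xGL chevF4 K 27 a' * xGL chevF4 K 25 b *
        ((xGL chevF4 K 28 (a' * b) * xGL chevF4 K 30 (a' ^ 2 * b)) * xGL chevF4 K 25 b') *
        ((xGL chevF4 K 28 c * xGL chevF4 K 30 d) * (xGL chevF4 K 28 c' * xGL chevF4 K 30 d')) := by
      rw [e]
      group
    _ = (xGL chevF4 K 27 a * xGL chevF4 K 27 a') * (xGL chevF4 K 25 b * xGL chevF4 K 25 b') *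
        ((xGL chevF4 K 28 (a' * b) * xGL chevF4 K 30 (a' ^ 2 * b)) *
          ((xGL chevF4 K 28 c * xGL chevF4 K 30 d) * (xGL chevF4 K 28 c' * xGL chevF4 K 30 d'))) := by
      rw [(hQ _ _).eq]
      group
    _ = _ := by
      rw [high_mul, high_mul, x_add'' (by decide +kernel), x_add'' (by decide +kernel), add_assoc, add_assoc]

end

section

variable {K : Type*} [Field K] [Fintype K] {m : ℕ} (hK : Fintype.card K = 2 ^ (2 * m + 1))

/-- The two orbits. -/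
abbrev J0 : Fin twF4.nOrb := ⟨0, by decide⟩

/-- The second orbit. -/
abbrev J1 : Fin twF4.nOrb := ⟨1, by decide⟩

/-- The first orbit group. -/
noncomputable def E0 (t : K) : ↥(grpF4 hK).Tw :=
  ⟨xGL chevF4 K 33 (t ^ 2 ^ m) * xGL chevF4 K 24 t, (grpF4 hK).fixPos_mem J0
    ((fixF4 hK J0 false _).2 ⟨t, 0, by simp [wordsF4, f4PairWord, f4p1, f4p4]⟩)⟩

/-- Its opposite. -/
noncomputable def N0 (t : K) : ↥(grpF4 hK).Tw :=
  ⟨xGL chevF4 K 14 (t ^ 2 ^ m) * xGL chevF4 K 23 t, (grpF4 hK).fixNeg_mem J0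
    ((fixF4 hK J0 true _).2 ⟨t, 0, by simp [wordsF4, f4PairWord, f4m1, f4m4]⟩)⟩

/-- The second orbit group. -/
noncomputable def E1 (t u : K) : ↥(grpF4 hK).Tw :=
  ⟨xGL chevF4 K 27 (t ^ 2 ^ m) * xGL chevF4 K 25 t *
      (xGL chevF4 K 28 (t ^ (2 ^ m + 1) + u) * xGL chevF4 K 30 (u ^ (2 * 2 ^ m))),
    (grpF4 hK).fixPos_mem J1
      ((fixF4 hK J1 false _).2 ⟨t, u, by simp [wordsF4, b2ClassWord, f4a, f4b, f4ab, f4aab, mul_assoc]⟩)⟩

theorem mem_XP0 {g : ↥(grpF4 hK).Tw} : g ∈ XP (grpF4 hK) J0 ↔ ∃ t, g = E0 hK t := by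
  constructor
  · intro h
    obtain ⟨t, u, e⟩ := (fixF4 hK J0 false _).1 ((mem_XP (grpF4 hK)).1 h)
    exact ⟨t, Subtype.ext (e.trans (by simp [E0, wordsF4, f4PairWord, f4p1, f4p4]))⟩
  · rintro ⟨t, rfl⟩
    exact (mem_XP (grpF4 hK)).2 ((fixF4 hK J0 false _).2 ⟨t, 0, by simp [E0, wordsF4, f4PairWord, f4p1, f4p4]⟩)

theorem mem_XN0 {g : ↥(grpF4 hK).Tw} : g ∈ XN (grpF4 hK) J0 ↔ ∃ t, g = N0 hK t := by
  constructor
  · intro h
    obtain ⟨t, u, e⟩ := (fixF4 hK J0 true _).1 ((mem_XN (grpF4 hK)).1 h)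
    exact ⟨t, Subtype.ext (e.trans (by simp [N0, wordsF4, f4PairWord, f4m1, f4m4]))⟩
  · rintro ⟨t, rfl⟩
    exact (mem_XN (grpF4 hK)).2 ((fixF4 hK J0 true _).2 ⟨t, 0, by simp [N0, wordsF4, f4PairWord, f4m1, f4m4]⟩)

theorem mem_XP1 {g : ↥(grpF4 hK).Tw} : g ∈ XP (grpF4 hK) J1 ↔ ∃ t u, g = E1 hK t u := by
  constructor
  · intro h
    obtain ⟨t, u, e⟩ := (fixF4 hK J1 false _).1 ((mem_XP (grpF4 hK)).1 h)
    exact ⟨t, u, Subtype.ext (e.trans
      (by simp [E1, wordsF4, b2ClassWord, f4a, f4b, f4ab, f4aab, mul_assoc]))⟩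
  · rintro ⟨t, u, rfl⟩
    exact (mem_XP (grpF4 hK)).2 ((fixF4 hK J1 false _).2
      ⟨t, u, by simp [E1, wordsF4, b2ClassWord, f4a, f4b, f4ab, f4aab, mul_assoc]⟩)

include hK in
theorem coord0 {a b a' b' : K}
    (e : xGL chevF4 K 33 a * xGL chevF4 K 24 b = xGL chevF4 K 33 a' * xGL chevF4 K 24 b') :
    a = a' ∧ b = b' := by
  obtain ⟨len, hR⟩ := (rulesF4 K).root
  have h := zip_unique (S := glSys (rulesF4 K)) hR ((orbF4 hK).posJ_closed hR J0)
    (twF4_ok.enum_posJ (T := twistF4 hK) (fun _ => rfl) rfl J0) (v := [a, b]) (v' := [a', b']) rfl rfl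
    (by simpa [TwData.posList, twF4, glSys] using e)
  simpa using h

include hK in
theorem coord1 {a b c d a' b' c' d' : K}
    (e : xGL chevF4 K 27 a * xGL chevF4 K 25 b * (xGL chevF4 K 28 c * xGL chevF4 K 30 d) =
      xGL chevF4 K 27 a' * xGL chevF4 K 25 b' * (xGL chevF4 K 28 c' * xGL chevF4 K 30 d')) :
    a = a' ∧ b = b' ∧ c = c' ∧ d = d' := by
  obtain ⟨len, hR⟩ := (rulesF4 K).root
  have h := zip_unique (S := glSys (rulesF4 K)) hR ((orbF4 hK).posJ_closed hR J1)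
    (twF4_ok.enum_posJ (T := twistF4 hK) (fun _ => rfl) rfl J1) (v := [a, b, c, d]) (v' := [a', b', c', d'])
    rfl rfl (by simpa [TwData.posList, twF4, glSys, mul_assoc] using e)
  simpa using h

theorem E0_inj {t t' : K} (e : E0 hK t = E0 hK t') : t = t' :=
  (coord0 hK (congrArg Subtype.val e)).2

theorem E1_inj {t u t' u' : K} (e : E1 hK t u = E1 hK t' u') : t = t' ∧ u = u' := by
  obtain ⟨-, rfl, h, -⟩ := coord1 hK (congrArg Subtype.val e)
  exact ⟨rfl, add_left_cancel h⟩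

theorem E1_zero : E1 hK 0 0 = 1 := by
  have h : ∀ r < chevF4.nroots, xGL chevF4 K r 0 = 1 := fun r hr => (glSys (rulesF4 K)).x_zero hr
  exact Subtype.ext (by simp [E1, h 27 (by decide +kernel), h 25 (by decide +kernel), h 28 (by decide +kernel),
    h 30 (by decide +kernel)])

theorem E1_mul (t u t' u' : K) :
    E1 hK t u * E1 hK t' u' = E1 hK (t + t') (u + u' + t ^ 2 ^ m * t') := by
  have := charTwo_of_card hK
  refine Subtype.ext ?_
  show _ * _ = _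
  simp only [E1]
  rw [word_mul]
  have hadd : ∀ (x y : K) (n : ℕ), (x + y) ^ 2 ^ n = x ^ 2 ^ n + y ^ 2 ^ n := fun x y n => add_pow_char_pow x y 2 n
  have h2 : ∀ x : K, x + x = 0 := CharTwo.add_self_eq_zero
  have ht : (t ^ 2 ^ m) ^ (2 * 2 ^ m) = t := by rw [← pow_mul, mul_comm, pow_twice hK]
  congr 3
  · rw [hadd]
  · rw [pow_succ, pow_succ, pow_succ, hadd]
    linear_combination (-1 : K) * h2 (t ^ 2 ^ m * t')
  · rw [show 2 * 2 ^ m = 2 ^ (m + 1) by ring] at ht ⊢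
    rw [hadd, hadd, mul_pow, ht, show (t' ^ 2 ^ m) ^ 2 = t' ^ 2 ^ (m + 1) by rw [← pow_mul, ← pow_succ]]
    ring

theorem E1_split (t u : K) : E1 hK t u = E1 hK t 0 * E1 hK 0 u := by
  rw [E1_mul]
  simp

theorem E1_sq (t u : K) : E1 hK t u * E1 hK t u = E1 hK 0 (t ^ (2 ^ m + 1)) := by
  have := charTwo_of_card hK
  rw [E1_mul, CharTwo.add_self_eq_zero, CharTwo.add_self_eq_zero, zero_add, pow_succ]

include hK in
theorem powUnit_surjective : Function.Surjective fun b : Kˣ => b ^ (2 ^ m + 1) := by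
  intro u
  refine ⟨(u⁻¹) ^ (2 * 2 ^ m - 2), ?_⟩
  obtain ⟨k, hk⟩ : ∃ k, 2 ^ m = k + 1 := ⟨2 ^ m - 1, (Nat.sub_add_cancel Nat.one_le_two_pow).symm⟩
  show ((u⁻¹) ^ (2 * 2 ^ m - 2)) ^ (2 ^ m + 1) = u
  rw [← pow_mul, inv_pow, inv_eq_iff_mul_eq_one, ← pow_succ]
  have h := units_pow_twice hK u
  rw [show 2 * 2 ^ m * 2 ^ m = (2 * 2 ^ m - 2) * (2 ^ m + 1) + 1 + 1 by
    rw [hk, show 2 * (k + 1) - 2 = 2 * k by omega]; ring, pow_succ] at h
  exact mul_eq_right.1 h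

include hK in
theorem powUnit_injective : Function.Injective fun b : Kˣ => b ^ (2 ^ m + 1) :=
  Finite.injective_iff_surjective.2 (powUnit_surjective hK)

include hK in
theorem exists_unit_ne_one (hm : 1 ≤ m) : ∃ a : Kˣ, a ≠ 1 ∧ ((a : K) ^ 2 ^ m) ≠ a := by
  classical
  have hc : 1 < Fintype.card Kˣ := by
    rw [Fintype.card_units, hK]
    have : 2 ^ 3 ≤ 2 ^ (2 * m + 1) := Nat.pow_le_pow_right (by norm_num) (by omega)
    omega
  obtain ⟨a, ha⟩ := Fintype.exists_ne_of_one_lt_card hc 1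
  refine ⟨a, ha, fun h => ha (Units.ext ?_)⟩
  have h' := pow_twice hK (a : K)
  rw [show 2 * 2 ^ m * 2 ^ m = 2 ^ m * 2 ^ m * 2 by ring, pow_mul, pow_mul, h, h, pow_two] at h'
  exact (mul_eq_left₀ a.ne_zero).1 h'

/-- The Frobenius power in the definition of the twist. -/
noncomputable def frm : K →+* K :=
  haveI := charTwo_of_card hK
  iterateFrobenius K 2 m

theorem frm_apply (t : K) : frm hK t = t ^ 2 ^ m := by
  have := charTwo_of_card hK
  exact iterateFrobenius_def 2 m t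

variable {len : ℕ → ℕ} (hR : RootTable chevF4 len)

include hR in
theorem pair0 : RankOne.Pair (E0 hK) (N0 hK) := by
  have hS := rulesF4 K
  obtain ⟨s0, -, -, s3, n0, n3, -⟩ := rootsF4
  refine RankOne.PreP.pair ?_ (fun a h => ?_) fun a b e => ?_
  · have h := (RankOne.PreP.root (glSys hS) hS hR ⟨0, by decide⟩ (frm hK)).mul
      (RankOne.PreP.root (glSys hS) hS hR ⟨3, by decide⟩ (RingHom.id K)) (fun a b => by
        simp only [s0, s3, n0, n3]
        exact ⟨x_commuteF4 (by simp) _ _, (x_commuteF4 (a := 23) (b := 33) (by simp) _ _).symm,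
          (x_commuteF4 (a := 24) (b := 14) (by simp) _ _).symm, x_commuteF4 (by simp) _ _⟩)
    simp only [s0, s3, n0, n3, frm_apply, RingHom.id_apply] at h
    exact h
  · refine (coord0 hK (a' := 0) (b' := 0) (h.trans ?_)).2
    show (1 : GL chevF4.Idx K) = (glSys hS).x 33 0 * (glSys hS).x 24 0
    rw [(glSys hS).x_zero (by decide +kernel), (glSys hS).x_zero (by decide +kernel), mul_one]
  · exact eq_one_of_pos_neg hS hR J0 J0 ((mem_XP0 hK).2 ⟨a, rfl⟩)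
      (e ▸ (mem_XN0 hK).2 ⟨b, rfl⟩)

/-- The scalars of a torus element. -/
def Scal (h : ↥(grpF4 hK).Tw) (a b : Kˣ) : Prop :=
  (∀ t, h * E0 hK t * h⁻¹ = E0 hK ((a : K) * t)) ∧
    ∀ t u, h * E1 hK t u * h⁻¹ = E1 hK ((b : K) * t) ((b : K) ^ (2 ^ m + 1) * u)

include hR in
theorem conj_mem_XP {h : ↥(grpF4 hK).Tw} (hh : h ∈ HT (grpF4 hK)) {J : Fin twF4.nOrb} {g : ↥(grpF4 hK).Tw}
    (hg : g ∈ XP (grpF4 hK) J) : h * g * h⁻¹ ∈ XP (grpF4 hK) J := by
  simp only [XP, Subgroup.mem_subgroupOf, Subgroup.coe_mul, Subgroup.coe_inv] at hg ⊢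
  exact (Subgroup.mem_normalizer_iff.1
    ((glSys (rulesF4 K)).Hbar_le_normalizer_US (rulesF4 K) hR (orbF4 hK).posJ_lt hh) _).1 hg

include hR in
theorem exists_scal {h : ↥(grpF4 hK).Tw} (hh : h ∈ HT (grpF4 hK)) : ∃ a b, Scal hK h a b := by
  obtain ⟨c, hc0, hc, -⟩ := hbar_char (rulesF4 K) hR
    (show (h : GL chevF4.Idx K) ∈ (glSys (rulesF4 K)).Hbar from hh)
  have e0 : ∀ t, ((h * E0 hK t * h⁻¹ : ↥(grpF4 hK).Tw) : GL chevF4.Idx K) =
      xGL chevF4 K 33 (c 33 * t ^ 2 ^ m) * xGL chevF4 K 24 (c 24 * t) := fun t => by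
    show _ = (glSys (rulesF4 K)).x 33 _ * (glSys (rulesF4 K)).x 24 _
    rw [← hc 33 (by decide +kernel), ← hc 24 (by decide +kernel)]
    simp only [E0, glSys, Subgroup.coe_mul, Subgroup.coe_inv]
    group
  have e1 : ∀ t u, ((h * E1 hK t u * h⁻¹ : ↥(grpF4 hK).Tw) : GL chevF4.Idx K) =
      xGL chevF4 K 27 (c 27 * t ^ 2 ^ m) * xGL chevF4 K 25 (c 25 * t) *
        (xGL chevF4 K 28 (c 28 * (t ^ (2 ^ m + 1) + u)) * xGL chevF4 K 30 (c 30 * u ^ (2 * 2 ^ m))) :=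
    fun t u => by
    show _ = (glSys (rulesF4 K)).x 27 _ * (glSys (rulesF4 K)).x 25 _ *
      ((glSys (rulesF4 K)).x 28 _ * (glSys (rulesF4 K)).x 30 _)
    rw [← hc 27 (by decide +kernel), ← hc 25 (by decide +kernel), ← hc 28 (by decide +kernel),
      ← hc 30 (by decide +kernel)]
    simp only [E1, glSys, Subgroup.coe_mul, Subgroup.coe_inv]
    group
  obtain ⟨t0, ht0⟩ := (mem_XP0 hK).1 (conj_mem_XP hK hR hh ((mem_XP0 hK).2 ⟨1, rfl⟩))
  obtain ⟨r33, r24⟩ := coord0 hK ((e0 1).symm.trans (congrArg Subtype.val ht0))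
  rw [one_pow, mul_one] at r33
  rw [mul_one] at r24
  obtain ⟨t1, u1, ht1⟩ := (mem_XP1 hK).1 (conj_mem_XP hK hR hh ((mem_XP1 hK).2 ⟨1, 0, rfl⟩))
  obtain ⟨r27, r25, r28, r30⟩ := coord1 hK ((e1 1 0).symm.trans (congrArg Subtype.val ht1))
  obtain ⟨t2, u2, ht2⟩ := (mem_XP1 hK).1 (conj_mem_XP hK hR hh ((mem_XP1 hK).2 ⟨0, 1, rfl⟩))
  obtain ⟨-, s25, s28, s30⟩ := coord1 hK ((e1 0 1).symm.trans (congrArg Subtype.val ht2))
  rw [zero_pow (by positivity), mul_zero, eq_comm, pow_eq_zero_iff (by positivity)] at r30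
  rw [one_pow, mul_one] at r27
  rw [mul_one] at r25
  rw [one_pow, r30, add_zero, add_zero, mul_one] at r28
  rw [mul_zero] at s25
  subst s25
  rw [zero_pow (by positivity), zero_add, zero_add, mul_one] at s28
  rw [one_pow, mul_one] at s30
  refine ⟨Units.mk0 (c 24) (hc0 24 (by decide +kernel)), Units.mk0 (c 25) (hc0 25 (by decide +kernel)),
    fun t => Subtype.ext ?_, fun t u => Subtype.ext ?_⟩
  · rw [e0]
    simp only [E0, Units.val_mk0, mul_pow]
    rw [r33, ← r24]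
  · rw [e1]
    simp only [E1, Units.val_mk0, mul_pow]
    rw [r27, ← r25, r28, ← r25, mul_add, s30, ← s28, r28, ← r25]

include hR in
theorem eq_of_scal {h h' : ↥(grpF4 hK).Tw} (hh : h ∈ HT (grpF4 hK)) (hh' : h' ∈ HT (grpF4 hK)) {a b : Kˣ}
    (e : Scal hK h a b) (e' : Scal hK h' a b) : h = h' := by
  have hS := rulesF4 K
  set g := h'⁻¹ * h with hg
  have hgH : g ∈ HT (grpF4 hK) := mul_mem (inv_mem hh') hh
  have f0 : g * E0 hK 1 * g⁻¹ = E0 hK 1 := by
    have := (e.1 1).trans (e'.1 1).symm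
    calc g * E0 hK 1 * g⁻¹ = h'⁻¹ * (h * E0 hK 1 * h⁻¹) * h' := by rw [hg]; group
      _ = _ := by rw [this]; group
  have f1 : g * E1 hK 1 0 * g⁻¹ = E1 hK 1 0 := by
    have := (e.2 1 0).trans (e'.2 1 0).symm
    calc g * E1 hK 1 0 * g⁻¹ = h'⁻¹ * (h * E1 hK 1 0 * h⁻¹) * h' := by rw [hg]; group
      _ = _ := by rw [this]; group
  obtain ⟨c, hc0, hc, -⟩ := hbar_char hS hR
    (show (g : GL chevF4.Idx K) ∈ (glSys hS).Hbar from hgH)
  obtain ⟨r33, r24⟩ : c 33 = 1 ∧ c 24 = 1 := by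
    refine coord0 hK ?_
    have := congrArg Subtype.val f0
    simp only [E0, Subgroup.coe_mul, Subgroup.coe_inv, one_pow] at this
    refine Eq.trans ?_ this
    show (glSys hS).x 33 (c 33) * (glSys hS).x 24 (c 24) = _
    rw [← mul_one (c 33), ← mul_one (c 24), ← hc 33 (by decide +kernel), ← hc 24 (by decide +kernel)]
    simp only [glSys]
    group
  obtain ⟨r27, r25, -⟩ : c 27 = 1 ∧ c 25 = 1 ∧ c 28 * 1 = 1 ∧ c 30 * 0 = 0 := by
    refine coord1 hK ?_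
    have := congrArg Subtype.val f1
    simp only [E1, Subgroup.coe_mul, Subgroup.coe_inv, one_pow, add_zero, zero_pow (by positivity : 2 * 2 ^ m ≠ 0)] at this
    refine Eq.trans ?_ this
    show (glSys hS).x 27 (c 27) * (glSys hS).x 25 (c 25) * ((glSys hS).x 28 _ * (glSys hS).x 30 _) = _
    rw [← mul_one (c 27), ← mul_one (c 25), ← hc 27 (by decide +kernel), ← hc 25 (by decide +kernel),
      ← hc 28 (by decide +kernel), ← hc 30 (by decide +kernel)]
    simp only [glSys]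
    group
  obtain ⟨s0, s1, s2, s3, -⟩ := rootsF4
  have hfix : ∀ i : Fin chevF4.rank, (g : GL chevF4.Idx K) * (glSys hS).x (chevF4.simple i) 1 *
      (g : GL chevF4.Idx K)⁻¹ = (glSys hS).x (chevF4.simple i) 1 := by
    refine forallF4.2 ⟨?_, ?_, ?_, ?_⟩ <;> simp only [s0, s1, s2, s3]
    · rw [hc 33 (by decide +kernel), r33, mul_one]
    · rw [hc 27 (by decide +kernel), r27, mul_one]
    · rw [hc 25 (by decide +kernel), r25, mul_one]
    · rw [hc 24 (by decide +kernel), r24, mul_one]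
  have h1 : (g : GL chevF4.Idx K) = 1 :=
    (glSys hS).θ_eq_one_of_fix hS hR hgH (hbar_fix_of_simple hS hR hgH hfix)
  exact (inv_mul_eq_one.1 (Subtype.ext h1 : g = 1)).symm

include hR in
theorem exists_HT_scal (a b : Kˣ) : ∃ h ∈ HT (grpF4 hK), Scal hK h a b := by
  choose A B hAB using fun h : ↥(HT (grpF4 hK)) => exists_scal hK hR h.2
  have hbij : Function.Bijective fun h => (A h, B h) := by
    refine (Nat.bijective_iff_injective_and_card _).2 ⟨fun h h' e => ?_, ?_⟩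
    · obtain ⟨ea, eb⟩ := Prod.ext_iff.1 e
      exact Subtype.ext (eq_of_scal hK hR h.2 h'.2 (hAB h) (by
        have := hAB h'
        rwa [← show A h = A h' from ea, ← show B h = B h' from eb] at this))
    · rw [card_HT (grpF4 hK) hR, show (grpF4 hK).Tw = twistedF4 K (2 ^ m) from rfl, thm_S1110 hK, Nat.card_prod,
        Nat.card_units, Nat.card_eq_fintype_card, hK, pow_two]
  obtain ⟨h, e⟩ := hbij.2 (a, b)
  obtain ⟨ea, eb⟩ := Prod.ext_iff.1 e
  refine ⟨h, h.2, ?_⟩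
  have := hAB h
  rwa [show A h = a from ea, show B h = b from eb] at this

theorem hOf_coe (a : K) :
    ((RankOne.hOf (E0 hK) (N0 hK) a : ↥(grpF4 hK).Tw) : GL chevF4.Idx K) =
      (glSys (rulesF4 K)).hEl (chevF4.simple 0) (a ^ 2 ^ m) * (glSys (rulesF4 K)).hEl (chevF4.simple 3) a := by
  have hS := rulesF4 K
  obtain ⟨s0, -, -, s3, n0, n3, -⟩ := rootsF4
  have hc : RankOne.Comm2 (fun t => (glSys hS).x (chevF4.simple 0) (frm hK t))
      (fun t => (glSys hS).x (chevF4.neg (chevF4.simple 0)) (frm hK t))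
      (fun t => (glSys hS).x (chevF4.simple 3) (RingHom.id K t))
      (fun t => (glSys hS).x (chevF4.neg (chevF4.simple 3)) (RingHom.id K t)) := fun a b => by
    simp only [s0, s3, n0, n3]
    exact ⟨x_commuteF4 (by simp) _ _, (x_commuteF4 (a := 23) (b := 33) (by simp) _ _).symm,
      (x_commuteF4 (a := 24) (b := 14) (by simp) _ _).symm, x_commuteF4 (by simp) _ _⟩
  have e := RankOne.hOf_mul hc a
  rw [RankOne.hOf_root (glSys hS) ⟨0, by decide⟩ (frm hK) a,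
    RankOne.hOf_root (glSys hS) ⟨3, by decide⟩ (RingHom.id K) a] at e
  rw [RankOne.coe_hOf, ← frm_apply hK, ← RingHom.id_apply a]
  refine Eq.trans ?_ e
  simp only [s0, s3, n0, n3, frm_apply, RingHom.id_apply]
  rfl

theorem hOf_mem {a : K} (ha : a ≠ 0) : RankOne.hOf (E0 hK) (N0 hK) a ∈ HT (grpF4 hK) := by
  show ((RankOne.hOf (E0 hK) (N0 hK) a : ↥(grpF4 hK).Tw) : GL chevF4.Idx K) ∈ (glSys (rulesF4 K)).Hbar
  rw [hOf_coe]
  exact mul_mem ((glSys (rulesF4 K)).hEl_simple_mem ⟨0, by decide⟩ (pow_ne_zero _ ha))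
    ((glSys (rulesF4 K)).hEl_simple_mem ⟨3, by decide⟩ ha)

include hR in
/-- The torus elements of the first orbit on the second one. -/
theorem hOf_link {a : K} (ha : a ≠ 0) :
    RankOne.hOf (E0 hK) (N0 hK) a * E1 hK 1 0 * (RankOne.hOf (E0 hK) (N0 hK) a)⁻¹ = E1 hK a⁻¹ 0 := by
  have hS := rulesF4 K
  obtain ⟨-, -, -, -, -, -, c025, c325, -⟩ := rootsF4
  have hcoe := hOf_coe hK a
  obtain ⟨x, y, -, hs⟩ := exists_scal hK hR (hOf_mem hK ha)
  rw [hs, mul_zero, mul_one]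
  suffices h : (y : K) = a⁻¹ by rw [h]
  have e := congrArg Subtype.val (hs 1 0)
  simp only [E1, Subgroup.coe_mul, Subgroup.coe_inv, hcoe, one_pow, add_zero, mul_one, mul_zero,
    zero_pow (by positivity : 2 * 2 ^ m ≠ 0)] at e
  have hA := (glSys hS).conjP_hI hS hR ⟨0, by decide⟩ (pow_ne_zero (2 ^ m) ha)
  have hB := (glSys hS).conjP_hI hS hR ⟨3, by decide⟩ ha
  have hcj : ∀ r < chevF4.nroots, ∀ t : K,
      ((glSys hS).hEl (chevF4.simple 0) (a ^ 2 ^ m) * (glSys hS).hEl (chevF4.simple 3) a) * (glSys hS).x r t *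
        ((glSys hS).hEl (chevF4.simple 0) (a ^ 2 ^ m) * (glSys hS).hEl (chevF4.simple 3) a)⁻¹ =
      (glSys hS).x r ((a ^ 2 ^ m) ^ chevF4.cartan 0 r * (a ^ chevF4.cartan 3 r * t)) := fun r hr t => by
    rw [← hA r hr, ← hB r hr]
    group
  set H := (glSys hS).hEl (chevF4.simple 0) (a ^ 2 ^ m) * (glSys hS).hEl (chevF4.simple 3) a with hHdef
  have hsplit : ∀ A B C D : GL chevF4.Idx K, H * (A * B * (C * D)) * H⁻¹ =
      H * A * H⁻¹ * (H * B * H⁻¹) * (H * C * H⁻¹ * (H * D * H⁻¹)) := fun A B C D => by group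
  rw [hsplit] at e
  have hx : ∀ r < chevF4.nroots, ∀ t : K, H * xGL chevF4 K r t * H⁻¹ =
      xGL chevF4 K r ((a ^ 2 ^ m) ^ chevF4.cartan 0 r * (a ^ chevF4.cartan 3 r * t)) := hcj
  rw [hx 27 (by decide +kernel), hx 25 (by decide +kernel), hx 28 (by decide +kernel),
    hx 30 (by decide +kernel)] at e
  have h := (coord1 hK e).2.1
  rw [c025, c325, zpow_zero, one_mul, mul_one, zpow_neg_one] at h
  exact h.symm

theorem exists_fieldAut (σ : RingAut K) :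
    ∃ φ : MulAut ↥(grpF4 hK).Tw, Normalised (grpF4 hK) φ ∧ (∀ t, φ (E0 hK t) = E0 hK (σ t)) ∧
      (∀ t, φ (N0 hK t) = N0 hK (σ t)) ∧ ∀ t u, φ (E1 hK t u) = E1 hK (σ t) (σ u) := by
  obtain ⟨e, he⟩ := exists_amb_field (rulesF4 K) σ
  obtain ⟨φ, hn, hφ⟩ := exists_field_aut (grpF4 hK) σ e (fun r _ t => he r t) fun r _ t => by
    rw [twistF4_f, twistF4_f, map_pow]
  have he' : ∀ r t, e (xGL chevF4 K r t) = xGL chevF4 K r (σ t) := he
  refine ⟨φ, hn, fun t => Subtype.ext ?_, fun t => Subtype.ext ?_, fun t u => Subtype.ext ?_⟩ <;> rw [hφ]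
  · simp [E0, he', map_pow]
  · simp [N0, he', map_pow]
  · simp [E1, he', map_pow]

/-- The field automorphisms. -/
noncomputable def Φ (σ : RingAut K) : MulAut ↥(grpF4 hK).Tw := (exists_fieldAut hK σ).choose

theorem Φ_normalised (σ : RingAut K) : Normalised (grpF4 hK) (Φ hK σ) :=
  (exists_fieldAut hK σ).choose_spec.1

theorem Φ_spec (σ : RingAut K) : (∀ t, Φ hK σ (E0 hK t) = E0 hK (σ t)) ∧
    (∀ t, Φ hK σ (N0 hK t) = N0 hK (σ t)) ∧ ∀ t u, Φ hK σ (E1 hK t u) = E1 hK (σ t) (σ u) :=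
  (exists_fieldAut hK σ).choose_spec.2

include hR in
theorem orbit_fixed {β : MulAut ↥(grpF4 hK).Tw} (hβ : Normalised (grpF4 hK) β)
    (J : Fin twF4.nOrb) (g : ↥(grpF4 hK).Tw) :
    (β g ∈ XP (grpF4 hK) J ↔ g ∈ XP (grpF4 hK) J) ∧ (β g ∈ XN (grpF4 hK) J ↔ g ∈ XN (grpF4 hK) J) ∧
      (β g ∈ PT (grpF4 hK) (rulesF4 K) hR (twF4_ok.isLongest (T := twistF4 hK) (fun _ => rfl) rfl) J ↔
        g ∈ PT (grpF4 hK) (rulesF4 K) hR (twF4_ok.isLongest (T := twistF4 hK) (fun _ => rfl) rfl) J) := by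
  have h0 := twF4_ok.isLongest (T := twistF4 hK) (fun _ => rfl) rfl
  have hν : ∀ J, (∀ r ∈ (orbF4 hK).negJ J,
      act chevF4 ((orbF4 hK).word twF4.longSeq) r ∈ (orbF4 hK).posJ J) ∧
      ∀ r ∈ (orbF4 hK).posJ J,
        act chevF4 ((orbF4 hK).word twF4.longSeq).reverse r ∈ (orbF4 hK).negJ J := fun J => by
    have ep := twF4_ok.enum_posJ (T := twistF4 hK) (fun _ => rfl) rfl J
    have en := twF4_ok.enum_negJ (T := twistF4 hK) (fun _ => rfl) rfl hR J
    exact ⟨fun r hr => (ep.2 _).1 ((tableF4 J).2 r ((en.2 r).2 hr)),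
      fun r hr => (en.2 _).1 ((tableF4 J).1 r ((ep.2 r).2 hr))⟩
  obtain ⟨π, hπ⟩ := exists_perm (grpF4 hK) (rulesF4 K) hR h0 hν hβ
  have hπJ : π J = J := by
    have e := card_eq_of_perm (grpF4 hK) (fun J g => (hπ J g).1) J
    rw [card_fixF4 hK, card_fixF4 hK] at e
    have hne : (2 ^ (2 * m + 1)) ≠ (2 ^ (2 * m + 1)) ^ 2 := fun h => by
      have h2 : 2 ≤ 2 ^ (2 * m + 1) := Nat.le_self_pow (by omega) 2
      nlinarith
    have hlt := J.2
    have hlt' := (π J).2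
    simp only [TwData.nOrb, twF4, List.length_cons, List.length_nil] at hlt hlt'
    refine Fin.ext ?_
    split_ifs at e with h1 h2 <;> omega
  have := hπ J g
  rwa [hπJ] at this

include hR in
/-- An automorphism fixing the first orbit and normalised on the second is trivial. -/
theorem eq_one_of_fix0 (hm : 1 ≤ m) {γ : MulAut ↥(grpF4 hK).Tw} (hn : Normalised (grpF4 hK) γ)
    (hE : ∀ t, γ (E0 hK t) = E0 hK t) (hN : ∀ t, γ (N0 hK t) = N0 hK t)
    (h1 : ∃ d, γ (E1 hK 1 0) = E1 hK 1 d) : γ = 1 := by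
  have := charTwo_of_card hK
  have h0 := twF4_ok.isLongest (T := twistF4 hK) (fun _ => rfl) rfl
  obtain ⟨d, hd⟩ := h1
  have hof : ∀ a, γ (RankOne.hOf (E0 hK) (N0 hK) a) = RankOne.hOf (E0 hK) (N0 hK) a := fun a => by
    simp [RankOne.hOf, RankOne.nOf, hE, hN]
  have hd0 : γ (E1 hK 0 0) = E1 hK 0 0 := by rw [E1_zero, map_one]
  -- the second orbit modulo its centre
  have ht : ∀ t, ∃ u, γ (E1 hK t 0) = E1 hK t u := by
    intro t
    rcases eq_or_ne t 0 with rfl | ht0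
    · exact ⟨0, hd0⟩
    have hlink := hOf_link hK hR (inv_ne_zero ht0)
    rw [inv_inv] at hlink
    have e := congrArg γ hlink
    rw [map_mul, map_mul, map_inv, hof, hd] at e
    obtain ⟨x, y, -, hs⟩ := exists_scal hK hR (hOf_mem hK (inv_ne_zero ht0))
    rw [hs] at e hlink
    obtain ⟨hy, -⟩ := E1_inj hK hlink
    exact ⟨_, by rw [← e, hy]⟩
  have hz : ∀ u, γ (E1 hK 0 u) = E1 hK 0 u := by
    intro u
    rcases eq_or_ne u 0 with rfl | hu
    · exact hd0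
    obtain ⟨b, hb⟩ := powUnit_surjective hK (Units.mk0 u hu)
    have hb' : (b : K) ^ (2 ^ m + 1) = u := by
      rw [← Units.val_pow_eq_pow_val]
      exact congrArg Units.val hb
    obtain ⟨v, hv⟩ := ht b
    rw [← hb', ← E1_sq hK (b : K) 0, map_mul, hv, E1_sq, E1_sq]
  -- the torus
  have hH : ∀ h ∈ HT (grpF4 hK), γ h = h := by
    intro h hh
    have hγh : γ h ∈ HT (grpF4 hK) := (hn.mem_HT (grpF4 hK) (rulesF4 K) hR h0 h).2 hh
    obtain ⟨a, b, hs⟩ := exists_scal hK hR hh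
    obtain ⟨a', b', hs'⟩ := exists_scal hK hR hγh
    have ea : a' = a := by
      have e := congrArg γ (hs.1 1)
      rw [map_mul, map_mul, map_inv, hE, hs'.1, hE, mul_one, mul_one] at e
      exact Units.ext (E0_inj hK e)
    have eb : b' = b := by
      have e := congrArg γ (hs.2 1 0)
      obtain ⟨u, hu⟩ := ht ((b : K) * 1)
      rw [map_mul, map_mul, map_inv, hd, hs'.2, mul_zero, hu, mul_one, mul_one] at e
      exact Units.ext (E1_inj hK e).1
    subst ea eb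
    exact eq_of_scal hK hR hγh hh hs' hs
  have hdt : ∀ t, γ (E1 hK t 0) = E1 hK t (t ^ (2 ^ m + 1) * d) := by
    intro t
    rcases eq_or_ne t 0 with rfl | ht0
    · simpa using hd0
    obtain ⟨h, hh, hs⟩ := exists_HT_scal hK hR 1 (Units.mk0 t ht0)
    have e := congrArg γ (hs.2 1 0)
    rw [map_mul, map_mul, map_inv, hH h hh, hd, hs.2, Units.val_mk0, mul_one, mul_zero] at e
    exact e.symm
  have hd1 : d = 0 := by
    obtain ⟨a, -, ha⟩ := exists_unit_ne_one hK hm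
    have e := congrArg γ (show E1 hK (a : K) 0 * E1 hK 1 0 = E1 hK ((a : K) + 1) 0 * E1 hK 0 ((a : K) ^ 2 ^ m) by
      rw [E1_mul, E1_mul]; simp)
    rw [map_mul, map_mul, hdt, hdt, hdt, hz, E1_mul, E1_mul] at e
    have e2 := (E1_inj hK e).2
    rw [pow_succ, pow_succ, pow_succ, add_pow_char_pow, one_pow, mul_one] at e2
    have h3 : ((a : K) ^ 2 ^ m + a) * d = 0 := by linear_combination (-1 : K) * e2
    exact (mul_eq_zero.1 h3).resolve_left fun h => ha (CharTwo.add_eq_zero.1 h)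
  have hP : ∀ J, ∀ g ∈ XP (grpF4 hK) J, γ g = g := by
    intro J g hg
    fin_cases J
    · obtain ⟨t, rfl⟩ := (mem_XP0 hK).1 hg
      exact hE t
    · obtain ⟨t, u, rfl⟩ := (mem_XP1 hK).1 hg
      rw [E1_split, map_mul, hdt, hd1, mul_zero, hz]
  refine aut_ext_XP (grpF4 hK) (fun J g hg => hP J g hg) fun J g hg => ?_
  fin_cases J
  · obtain ⟨t, rfl⟩ := (mem_XN0 hK).1 hg
    exact hN t
  · refine fix_XN (grpF4 hK) (rulesF4 K) hR h0 hn J1 (fun g => (orbit_fixed hK hR hn J1 g).2.2)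
      (fun g => (orbit_fixed hK hR hn J1 g).2.1) (hP J1) hH (fun c hc hfree => ?_) hg
    obtain ⟨t, u, rfl⟩ := (mem_XP1 hK).1 hc
    obtain ⟨b, hb, -⟩ := exists_unit_ne_one hK hm
    obtain ⟨h, hh, hs⟩ := exists_HT_scal hK hR 1 b
    obtain ⟨et, eu⟩ := E1_inj hK ((hs.2 t u).symm.trans (hfree h hh))
    have ht0 : t = 0 := by
      by_contra ht0
      exact hb (Units.ext ((mul_eq_right₀ ht0).1 et))
    have hu0 : u = 0 := by
      by_contra hu0
      refine hb (powUnit_injective hK ?_)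
      show b ^ (2 ^ m + 1) = (1 : Kˣ) ^ (2 ^ m + 1)
      rw [one_pow]
      exact Units.ext (by rw [Units.val_pow_eq_pow_val, Units.val_one]; exact (mul_eq_right₀ hu0).1 eu)
    rw [ht0, hu0, E1_zero]

include hR in
theorem card_out (hm : 1 ≤ m) : Nat.card (Cfsg.Out ↥(grpF4 hK).Tw) = 2 * m + 1 := by
  have := charTwo_of_card hK
  have : Fact (Nat.Prime 2) := ⟨Nat.prime_two⟩
  have h0 := twF4_ok.isLongest (T := twistF4 hK) (fun _ => rfl) rfl
  rw [card_out_of_field (grpF4 hK) (rulesF4 K) hR h0 (fun a b h => h) (Φ hK) (Φ_normalised hK) ?_ ?_,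
    Aut.card_ringAut (p := 2) hK]
  · intro β hβ
    choose σ hσ using fun t => (mem_XP0 hK).1 (((orbit_fixed hK hR hβ J0 _).1).2 ((mem_XP0 hK).2 ⟨t, rfl⟩))
    obtain ⟨t1, u1, h1⟩ := (mem_XP1 hK).1
      (((orbit_fixed hK hR hβ J1 _).1).2 ((mem_XP1 hK).2 ⟨1, 0, rfl⟩))
    have hσ1 : σ 1 ≠ 0 := fun h => by
      have e := hσ 1
      rw [h] at e
      have : E0 hK 0 = 1 := (pair0 hK hR).X_zero
      rw [this, EmbeddingLike.map_eq_one_iff] at e
      exact one_ne_zero (E0_inj hK (e.trans this.symm))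
    have ht1 : t1 ≠ 0 := fun h => by
      have e := congrArg (fun g => g * g) h1
      simp only [← map_mul, E1_sq, h] at e
      rw [zero_pow (by positivity), E1_zero, EmbeddingLike.map_eq_one_iff, ← E1_zero hK] at e
      exact one_ne_zero (pow_eq_zero_iff (by positivity) |>.1 (E1_inj hK e).2)
    obtain ⟨h, hh, hs⟩ := exists_HT_scal hK hR (Units.mk0 (σ 1) hσ1) (Units.mk0 t1 ht1)
    set β₁ := MulAut.conj h⁻¹ * β with hβ₁
    have hn₁ : Normalised (grpF4 hK) β₁ := hβ.conj_mul (grpF4 hK) (rulesF4 K) hR h0 (inv_mem hh)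
    choose σ₁ hσ₁ using fun t => (mem_XP0 hK).1 (((orbit_fixed hK hR hn₁ J0 _).1).2 ((mem_XP0 hK).2 ⟨t, rfl⟩))
    choose τ₁ hτ₁ using fun t => (mem_XN0 hK).1 (((orbit_fixed hK hR hn₁ J0 _).2.1).2 ((mem_XN0 hK).2 ⟨t, rfl⟩))
    have hback : ∀ x y, β x = h * y * h⁻¹ → β₁ x = y := fun x y e => by
      rw [hβ₁, MulAut.mul_apply, MulAut.conj_apply, e]
      group
    have hone : σ₁ 1 = 1 := E0_inj hK ((hσ₁ 1).symm.trans (hback _ _ (by
      rw [hs.1, Units.val_mk0, mul_one, hσ])))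
    have hE1 : ∃ d, β₁ (E1 hK 1 0) = E1 hK 1 d := by
      refine ⟨((t1 : K) ^ (2 ^ m + 1))⁻¹ * u1, hback _ _ ?_⟩
      rw [hs.2, Units.val_mk0, mul_one, mul_inv_cancel_left₀ (pow_ne_zero _ ht1), h1]
    have hh1 : RankOne.Hom (E0 hK) (N0 hK) (E0 hK) (N0 hK) β₁ σ₁ τ₁ :=
      ⟨hσ₁, hτ₁, Finite.injective_iff_bijective.1 fun s t e => E0_inj hK (β₁.injective (by rw [hσ₁, hσ₁, e])),
        hone⟩
    obtain ⟨e, he, he'⟩ := hh1.exists_ringEquiv (pair0 hK hR) (pair0 hK hR)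
    obtain ⟨f0, f1, f2⟩ := Φ_spec hK e
    set γ := β₁ * (Φ hK e)⁻¹ with hγ
    have hnγ : Normalised (grpF4 hK) γ := by
      refine ⟨fun g => ?_, fun g => ?_⟩
      · rw [hγ, MulAut.mul_apply, hn₁.1]
        exact (Normalised.symm _ (Φ_normalised hK e)).1 g
      · rw [hγ, MulAut.mul_apply, hn₁.2]
        exact (Normalised.symm _ (Φ_normalised hK e)).2 g
    have hγone := eq_one_of_fix0 hK hR hm hnγ (fun t => ?_) (fun t => ?_) ?_
    · refine ⟨h, hh, e, ?_⟩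
      rw [← mul_inv_eq_one.1 hγone, hβ₁, ← mul_assoc, ← map_mul, mul_inv_cancel, map_one, one_mul]
    · show β₁ ((Φ hK e).symm (E0 hK t)) = _
      rw [show (Φ hK e).symm (E0 hK t) = E0 hK (e.symm t) by
        rw [MulEquiv.symm_apply_eq, f0, RingEquiv.apply_symm_apply], hσ₁, he, RingEquiv.apply_symm_apply]
    · show β₁ ((Φ hK e).symm (N0 hK t)) = _
      rw [show (Φ hK e).symm (N0 hK t) = N0 hK (e.symm t) by
        rw [MulEquiv.symm_apply_eq, f1, RingEquiv.apply_symm_apply], hτ₁, he', RingEquiv.apply_symm_apply]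
    · obtain ⟨d, hd⟩ := hE1
      refine ⟨d, ?_⟩
      show β₁ ((Φ hK e).symm (E1 hK 1 0)) = _
      rw [show (Φ hK e).symm (E1 hK 1 0) = E1 hK 1 0 by rw [MulEquiv.symm_apply_eq, f2, map_one, map_zero], hd]
  · intro h hh σ σ' e
    obtain ⟨a, b, hs⟩ := exists_scal hK hR hh
    have key : ∀ t, σ t = (a : K) * σ' t := fun t => by
      have e1 := DFunLike.congr_fun e (E0 hK t)
      rw [MulAut.mul_apply, MulAut.conj_apply, (Φ_spec hK σ).1, (Φ_spec hK σ').1, hs.1] at e1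
      exact E0_inj hK e1
    have h1 := key 1
    rw [map_one, map_one, mul_one] at h1
    exact RingEquiv.ext fun t => by rw [key t, ← h1, one_mul]

end

end Cfsg.Agent.KSG.TwAutF4
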